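import Mathlib
import Cfsg.Agent.Lib.Helper10.Card
import Cfsg.Agent.Lib.Helper31.LocalLayer

/-! Basic tools for the `P(G,V)`-theorem: everything is phrased with two monoid homomorphisms
`α : 𝔄 →* End V` (the offender) and `κ : Q →* End V` (the quasisimple group). -/

set_option autoImplicit false

namespace Cfsg.Agent.Lib.Helper51.PGV

universe u v w

section basic

variable {p : ℕ} [hp : Fact p.Prime]
variable {M : Type*} [Group M]
variable {V : Type v} [AddCommGroup V] [Module (ZMod p) V]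

/-- fixed points of a subgroup -/
def fixS (φ : M →* Module.End (ZMod p) V) (B : Subgroup M) : Submodule (ZMod p) V where
  carrier := {v | ∀ b ∈ B, φ b v = v}
  add_mem' := by
    intro x y hx hy b hb
    rw [map_add, hx b hb, hy b hb]
  zero_mem' := by
    intro b _
    exact map_zero _
  smul_mem' := by
    intro c x hx b hb
    rw [map_smul, hx b hb]

theorem mem_fixS {φ : M →* Module.End (ZMod p) V} {B : Subgroup M} {v : V} :
    v ∈ fixS φ B ↔ ∀ b ∈ B, φ b v = v := Iff.rfl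

theorem fixS_anti {φ : M →* Module.End (ZMod p) V} {B C : Subgroup M} (h : B ≤ C) :
    fixS φ C ≤ fixS φ B := fun _ hv b hb => hv b (h hb)

theorem hom_mul_inv (φ : M →* Module.End (ZMod p) V) (b : M) : φ b * φ b⁻¹ = 1 := by
  rw [← map_mul, mul_inv_cancel, map_one]

theorem hom_inv_mul (φ : M →* Module.End (ZMod p) V) (b : M) : φ b⁻¹ * φ b = 1 := by
  rw [← map_mul, inv_mul_cancel, map_one]

theorem hom_apply_inv_apply (φ : M →* Module.End (ZMod p) V) (b : M) (v : V) :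
    φ b (φ b⁻¹ v) = v := by
  have := congrArg (fun f => f v) (hom_mul_inv φ b)
  simpa using this

theorem hom_inv_apply_apply (φ : M →* Module.End (ZMod p) V) (b : M) (v : V) :
    φ b⁻¹ (φ b v) = v := by
  have := congrArg (fun f => f v) (hom_inv_mul φ b)
  simpa using this

theorem hom_injective (φ : M →* Module.End (ZMod p) V) (b : M) : Function.Injective (φ b) := by
  intro x y h
  rw [← hom_inv_apply_apply φ b x, h, hom_inv_apply_apply]

/-- restriction of an action to an invariant submodule -/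
def resHom (φ : M →* Module.End (ZMod p) V) (U : Submodule (ZMod p) V)
    (h : ∀ m, ∀ u ∈ U, φ m u ∈ U) : M →* Module.End (ZMod p) U where
  toFun m := (φ m).restrict (h m)
  map_one' := by
    ext u
    simp
  map_mul' := by
    intro a b
    ext u
    simp

@[simp] theorem resHom_apply (φ : M →* Module.End (ZMod p) V) (U : Submodule (ZMod p) V)
    (h : ∀ m, ∀ u ∈ U, φ m u ∈ U) (m : M) (u : U) : ((resHom φ U h m) u : V) = φ m u := rfl

/-- the induced action on a quotient by an invariant submodule -/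
def quoHom (φ : M →* Module.End (ZMod p) V) (U : Submodule (ZMod p) V)
    (h : ∀ m, ∀ u ∈ U, φ m u ∈ U) : M →* Module.End (ZMod p) (V ⧸ U) where
  toFun m := U.mapQ U (φ m) (fun u hu => h m u hu)
  map_one' := by
    apply Submodule.linearMap_qext
    ext u
    simp
  map_mul' := by
    intro a b
    apply Submodule.linearMap_qext
    ext u
    simp

@[simp] theorem quoHom_apply (φ : M →* Module.End (ZMod p) V) (U : Submodule (ZMod p) V)
    (h : ∀ m, ∀ u ∈ U, φ m u ∈ U) (m : M) (v : V) :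
    (quoHom φ U h m) (Submodule.Quotient.mk v) = Submodule.Quotient.mk (φ m v) := rfl

theorem card_submodule_sup_mul_inf [Finite V] (X Y : Submodule (ZMod p) V) :
    Nat.card (X ⊔ Y : Submodule (ZMod p) V) * Nat.card (X ⊓ Y : Submodule (ZMod p) V)
      = Nat.card X * Nat.card Y := by
  have h := Submodule.finrank_sup_add_finrank_inf_eq X Y
  rw [Module.natCard_eq_pow_finrank (K := ZMod p) (V := (X ⊔ Y : Submodule (ZMod p) V)),
    Module.natCard_eq_pow_finrank (K := ZMod p) (V := (X ⊓ Y : Submodule (ZMod p) V)),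
    Module.natCard_eq_pow_finrank (K := ZMod p) (V := X),
    Module.natCard_eq_pow_finrank (K := ZMod p) (V := Y), ← pow_add, ← pow_add, h]

theorem card_submodule_le [Finite V] {X Y : Submodule (ZMod p) V} (h : X ≤ Y) :
    Nat.card X ≤ Nat.card Y :=
  Nat.card_le_card_of_injective (Submodule.inclusion h) (Submodule.inclusion_injective h)

theorem submodule_eq_of_le_of_card_le [Finite V] {X Y : Submodule (ZMod p) V} (h : X ≤ Y)
    (hc : Nat.card Y ≤ Nat.card X) : X = Y := by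
  apply SetLike.coe_injective
  refine Set.eq_of_subset_of_ncard_le h ?_ (Set.toFinite _)
  rw [← Nat.card_coe_set_eq, ← Nat.card_coe_set_eq]
  exact hc

/-- a `p`-group acting on a nonzero finite `𝔽_p`-space has a nonzero fixed vector -/
theorem exists_fixed_ne_zero [Finite V] [Nontrivial V] [Finite M] (hM : IsPGroup p M)
    (φ : M →* Module.End (ZMod p) V) : ∃ v : V, v ≠ 0 ∧ ∀ b, φ b v = v := by
  letI : MulAction M V := MulAction.compHom V φ
  have hsm : ∀ (b : M) (v : V), b • v = φ b v := fun _ _ => rfl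
  have hcard : p ∣ Nat.card V := by
    rw [Module.natCard_eq_pow_finrank (K := ZMod p) (V := V), Nat.card_zmod]
    exact dvd_pow_self p (Module.finrank_pos (R := ZMod p) (M := V)).ne'
  have h0 : (0 : V) ∈ MulAction.fixedPoints M V := by
    intro b
    rw [hsm, map_zero]
  obtain ⟨v, hv, hne⟩ := hM.exists_fixed_point_of_prime_dvd_card_of_fixed_point V hcard h0
  exact ⟨v, hne.symm, fun b => hv b⟩

theorem exists_fixed_in [Finite V] [Finite M] (hM : IsPGroup p M)
    (φ : M →* Module.End (ZMod p) V) (X : Submodule (ZMod p) V) (hX : ∀ m, ∀ u ∈ X, φ m u ∈ X)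
    (hne : X ≠ ⊥) : ∃ v ∈ X, v ≠ 0 ∧ ∀ b, φ b v = v := by
  haveI : Nontrivial X := Submodule.nontrivial_iff_ne_bot.mpr hne
  obtain ⟨v, hv, hf⟩ := exists_fixed_ne_zero hM (resHom φ X hX)
  refine ⟨v, v.2, fun h => hv (Subtype.ext h), fun b => ?_⟩
  have := congrArg Subtype.val (hf b)
  simpa using this

/-- relative version: `X < Y` invariant, then some `y ∈ Y \ X` is fixed modulo `X`. -/
theorem exists_fixed_rel [Finite V] [Finite M] (hM : IsPGroup p M)
    (φ : M →* Module.End (ZMod p) V) (X Y : Submodule (ZMod p) V)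
    (hX : ∀ m, ∀ u ∈ X, φ m u ∈ X) (hY : ∀ m, ∀ u ∈ Y, φ m u ∈ Y) (hnle : ¬ Y ≤ X) :
    ∃ y ∈ Y, y ∉ X ∧ ∀ b, φ b y - y ∈ X := by
  haveI : Finite (V ⧸ X) := Quotient.finite _
  set Y' : Submodule (ZMod p) (V ⧸ X) := Y.map X.mkQ with hY'
  have hY'inv : ∀ m, ∀ u ∈ Y', quoHom φ X hX m u ∈ Y' := by
    rintro m _ ⟨y, hy, rfl⟩
    exact ⟨φ m y, hY m y hy, rfl⟩
  have hne : Y' ≠ ⊥ := by
    intro h
    apply hnle
    intro y hy
    have : X.mkQ y ∈ Y' := ⟨y, hy, rfl⟩
    rw [h, Submodule.mem_bot, Submodule.mkQ_apply, Submodule.Quotient.mk_eq_zero] at this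
    exact this
  obtain ⟨v, ⟨y, hy, rfl⟩, hv0, hf⟩ := exists_fixed_in hM (quoHom φ X hX) Y' hY'inv hne
  refine ⟨y, hy, fun h => hv0 ?_, fun b => ?_⟩
  · rw [Submodule.mkQ_apply, Submodule.Quotient.mk_eq_zero]; exact h
  · have := hf b
    rw [Submodule.mkQ_apply, quoHom_apply, Submodule.Quotient.eq] at this
    exact this

end basic

section qsg

open scoped commutatorElement

/-- the two properties of a quasisimple group that are used -/
structure QSG (Q : Type w) [Group Q] : Prop where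
  perfect : ⁅(⊤ : Subgroup Q), (⊤ : Subgroup Q)⁆ = ⊤
  dich : ∀ N : Subgroup Q, N.Normal → N = ⊤ ∨ N ≤ Subgroup.center Q

variable {Q : Type w} [Group Q]

theorem QSG.eq_top_of_commutators (hQ : QSG Q) (N : Subgroup Q) (h : ∀ x y : Q, ⁅x, y⁆ ∈ N) :
    N = ⊤ := by
  rw [eq_top_iff, ← hQ.perfect, Subgroup.commutator_le]
  intro x _ y _
  exact h x y

theorem QSG.eq_top_of_noncentral (hQ : QSG Q) (N : Subgroup Q) (hN : N.Normal) {x : Q} (hx : x ∈ N)
    (hxc : x ∉ Subgroup.center Q) : N = ⊤ := by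
  rcases hQ.dich N hN with h | h
  · exact h
  · exact absurd (h hx) hxc

theorem QSG.eq_one_of_commutators_central (hQ : QSG Q)
    (h : ∀ x y : Q, ⁅x, y⁆ ∈ Subgroup.center Q) : ∀ x : Q, x = 1 := by
  have h1 : Subgroup.center Q = ⊤ := hQ.eq_top_of_commutators _ h
  have h2 : (⊥ : Subgroup Q) = ⊤ := by
    apply hQ.eq_top_of_commutators
    intro x y
    have hx : x ∈ Subgroup.center Q := h1 ▸ Subgroup.mem_top x
    rw [Subgroup.mem_bot, commutatorElement_eq_one_iff_mul_comm]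
    exact ((Subgroup.mem_center_iff.mp hx) y).symm
  intro x
  have : x ∈ (⊥ : Subgroup Q) := h2 ▸ Subgroup.mem_top x
  exact this

variable {p : ℕ} [hp : Fact p.Prime]
variable {V : Type v} [AddCommGroup V] [Module (ZMod p) V]

theorem hom_inv_eq {M N : Type*} [Group M] [Group N] (f : M →* Module.End (ZMod p) V)
    (g : N →* Module.End (ZMod p) V) {x : M} {y : N} (h : f x = g y) : f x⁻¹ = g y⁻¹ := by
  calc f x⁻¹ = f x⁻¹ * (g y * g y⁻¹) := by rw [hom_mul_inv, mul_one]
    _ = f x⁻¹ * f x * g y⁻¹ := by rw [← h, mul_assoc]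
    _ = g y⁻¹ := by rw [hom_inv_mul, one_mul]

theorem triv_of_comm (hQ : QSG Q) (κ : Q →* Module.End (ZMod p) V)
    (h : ∀ x y, Commute (κ x) (κ y)) : ∀ x, κ x = 1 := by
  have : κ.ker = ⊤ := by
    apply hQ.eq_top_of_commutators
    intro x y
    rw [MonoidHom.mem_ker, commutatorElement_def, map_mul, map_mul, map_mul, (h x y).eq,
      mul_assoc (κ y), hom_mul_inv, mul_one, hom_mul_inv]
  intro x
  have hx : x ∈ κ.ker := this ▸ Subgroup.mem_top x
  exact hx

/-- elements acting trivially on the section `X / Y` -/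
def sec (κ : Q →* Module.End (ZMod p) V) (X Y : Submodule (ZMod p) V)
    (hX : ∀ x, ∀ u ∈ X, κ x u ∈ X) (hY : ∀ x, ∀ u ∈ Y, κ x u ∈ Y) : Subgroup Q where
  carrier := {x | ∀ u ∈ X, κ x u - u ∈ Y}
  mul_mem' := by
    intro a b ha hb u hu
    have h1 := hY a _ (hb u hu)
    have h2 := ha u hu
    have : κ (a * b) u - u = κ a (κ b u - u) + (κ a u - u) := by
      rw [map_mul, map_sub]; simp
    rw [this]
    exact Y.add_mem h1 h2
  one_mem' := by
    intro u _
    simp
  inv_mem' := by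
    intro a ha u hu
    have h1 := hY a⁻¹ _ (ha u hu)
    have : κ a⁻¹ u - u = - (κ a⁻¹ (κ a u - u)) := by
      rw [map_sub, hom_inv_apply_apply]; abel
    rw [this]
    exact Y.neg_mem h1

theorem mem_sec {κ : Q →* Module.End (ZMod p) V} {X Y : Submodule (ZMod p) V}
    {hX : ∀ x, ∀ u ∈ X, κ x u ∈ X} {hY : ∀ x, ∀ u ∈ Y, κ x u ∈ Y} {x : Q} :
    x ∈ sec κ X Y hX hY ↔ ∀ u ∈ X, κ x u - u ∈ Y := Iff.rfl

theorem sec_normal (κ : Q →* Module.End (ZMod p) V) (X Y : Submodule (ZMod p) V)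
    (hX : ∀ x, ∀ u ∈ X, κ x u ∈ X) (hY : ∀ x, ∀ u ∈ Y, κ x u ∈ Y) : (sec κ X Y hX hY).Normal := by
  constructor
  intro n hn g u hu
  have h1 := hn _ (hX g⁻¹ u hu)
  have h2 := hY g _ h1
  have : κ (g * n * g⁻¹) u - u = κ g (κ n (κ g⁻¹ u) - κ g⁻¹ u) := by
    rw [map_mul, map_mul, map_sub, hom_apply_inv_apply]; simp
  rw [this]
  exact h2

theorem sec_all_of_noncentral (hQ : QSG Q) (κ : Q →* Module.End (ZMod p) V)
    (X Y : Submodule (ZMod p) V) (hX : ∀ x, ∀ u ∈ X, κ x u ∈ X) (hY : ∀ x, ∀ u ∈ Y, κ x u ∈ Y)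
    {x : Q} (hx : ∀ u ∈ X, κ x u - u ∈ Y) (hxc : x ∉ Subgroup.center Q) :
    ∀ g, ∀ u ∈ X, κ g u - u ∈ Y := by
  have := hQ.eq_top_of_noncentral (sec κ X Y hX hY) (sec_normal κ X Y hX hY) hx hxc
  intro g
  have hg : g ∈ sec κ X Y hX hY := this ▸ Subgroup.mem_top g
  exact hg

theorem sec_all_of_commutators (hQ : QSG Q) (κ : Q →* Module.End (ZMod p) V)
    (X Y : Submodule (ZMod p) V) (hX : ∀ x, ∀ u ∈ X, κ x u ∈ X) (hY : ∀ x, ∀ u ∈ Y, κ x u ∈ Y)
    (h : ∀ x y : Q, ∀ u ∈ X, κ ⁅x, y⁆ u - u ∈ Y) :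
    ∀ g, ∀ u ∈ X, κ g u - u ∈ Y := by
  have := hQ.eq_top_of_commutators (sec κ X Y hX hY) h
  intro g
  have hg : g ∈ sec κ X Y hX hY := this ▸ Subgroup.mem_top g
  exact hg

/-- trivial on `V / Y` and on `Y` implies trivial -/
theorem triv_of_two_step (hQ : QSG Q) (κ : Q →* Module.End (ZMod p) V) (Y : Submodule (ZMod p) V)
    (h1 : ∀ g v, κ g v - v ∈ Y) (h2 : ∀ g, ∀ y ∈ Y, κ g y = y) : ∀ x, κ x = 1 := by
  apply triv_of_comm hQ
  intro g h
  apply LinearMap.ext
  intro v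
  have e1 : κ g (κ h v) = κ g v + (κ h v - v) := by
    have := h2 g _ (h1 h v)
    rw [map_sub] at this
    rw [← this]; abel
  have e2 : κ h (κ g v) = κ h v + (κ g v - v) := by
    have := h2 h _ (h1 g v)
    rw [map_sub] at this
    rw [← this]; abel
  change κ g (κ h v) = κ h (κ g v)
  rw [e1, e2]; abel

theorem commutator_apply_sub (κ : Q →* Module.End (ZMod p) V) (g h : Q) (v : V) :
    κ ⁅g, h⁆ v - v = κ g (κ h (κ (g⁻¹ * h⁻¹) v)) - κ h (κ g (κ (g⁻¹ * h⁻¹) v)) := by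
  have e1 : κ ⁅g, h⁆ v = κ g (κ h (κ (g⁻¹ * h⁻¹) v)) := by
    rw [commutatorElement_def, mul_assoc, mul_assoc, map_mul, map_mul]; rfl
  have e2 : κ h (κ g (κ (g⁻¹ * h⁻¹) v)) = v := by
    rw [map_mul]
    change κ h (κ g (κ g⁻¹ (κ h⁻¹ v))) = v
    rw [hom_apply_inv_apply, hom_apply_inv_apply]
  rw [e1, e2]

/-- trivial on `V / W`, `W / F` and `F` implies trivial -/
theorem triv_of_three_step (hQ : QSG Q) (κ : Q →* Module.End (ZMod p) V)
    (W F : Submodule (ZMod p) V)
    (h1 : ∀ g v, κ g v - v ∈ W) (h2 : ∀ g, ∀ y ∈ W, κ g y - y ∈ F) (h3 : ∀ g, ∀ y ∈ F, κ g y = y) :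
    ∀ x, κ x = 1 := by
  apply triv_of_two_step hQ κ F _ h3
  have hF : ∀ x, ∀ u ∈ F, κ x u ∈ F := fun x u hu => by rw [h3 x u hu]; exact hu
  have := sec_all_of_commutators hQ κ ⊤ F (fun _ _ _ => Submodule.mem_top) hF ?_
  · intro g v
    exact this g v Submodule.mem_top
  · intro g h v _
    rw [commutator_apply_sub]
    set u := κ (g⁻¹ * h⁻¹) v
    have a1 := h2 g _ (h1 h u)
    have a2 := h2 h _ (h1 g u)
    have : κ g (κ h u) - κ h (κ g u) = (κ g (κ h u - u) - (κ h u - u)) - (κ h (κ g u - u) - (κ g u - u)) := by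
      rw [map_sub, map_sub]; abel
    rw [this]
    exact F.sub_mem a1 a2

/-- conjugate of `κ` by a unit -/
def conjHom (κ : Q →* Module.End (ZMod p) V) (δ δi : Module.End (ZMod p) V) (h1 : δ * δi = 1)
    (h2 : δi * δ = 1) : Q →* Module.End (ZMod p) V where
  toFun x := δ * κ x * δi
  map_one' := by rw [map_one, mul_one, h1]
  map_mul' := by
    intro x y
    calc δ * κ (x * y) * δi = δ * κ x * 1 * κ y * δi := by rw [map_mul]; simp [mul_assoc]
      _ = δ * κ x * δi * (δ * κ y * δi) := by rw [← h2]; simp [mul_assoc]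

@[simp] theorem conjHom_apply (κ : Q →* Module.End (ZMod p) V) (δ δi : Module.End (ZMod p) V)
    (h1 : δ * δi = 1) (h2 : δi * δ = 1) (x : Q) : conjHom κ δ δi h1 h2 x = δ * κ x * δi := rfl

/-- if a unit normalizes `κ Q` without centralizing it, some "commutator" is noncentral in `Q` -/
theorem exists_noncentral_comm (hQ : QSG Q) (κ : Q →* Module.End (ZMod p) V)
    (δ δi : Module.End (ZMod p) V) (h1 : δ * δi = 1) (h2 : δi * δ = 1)
    (hN : ∀ x, ∃ y, δ * κ x * δi = κ y) (hnc : ¬ ∀ x, Commute δ (κ x)) :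
    ∃ x y, δ * κ x * δi = κ y ∧ x * y⁻¹ ∉ Subgroup.center Q := by
  by_contra hcon
  push Not at hcon
  apply hnc
  set κ' := conjHom κ δ δi h1 h2 with hκ'
  let N : Subgroup Q :=
    { carrier := {x | κ' x = κ x}
      mul_mem' := by
        intro a b ha hb
        change κ' (a * b) = κ (a * b)
        rw [map_mul, map_mul, ha, hb]
      one_mem' := by
        change κ' 1 = κ 1
        rw [map_one, map_one]
      inv_mem' := by
        intro a ha
        exact hom_inv_eq κ' κ ha }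
  have hN' : N = ⊤ := by
    apply hQ.eq_top_of_commutators
    intro x x'
    obtain ⟨y, hy⟩ := hN x
    obtain ⟨y', hy'⟩ := hN x'
    have hz := hcon x y hy
    have hz' := hcon x' y' hy'
    have e1 : κ' x = κ y := hy
    have e2 : κ' x' = κ y' := hy'
    have e3 : ⁅y, y'⁆ = ⁅x, x'⁆ := by
      set z := x * y⁻¹ with hzdef
      set z' := x' * y'⁻¹ with hzdef'
      have hx : x = z * y := by rw [hzdef]; group
      have hx' : x' = z' * y' := by rw [hzdef']; group
      have c1 : ∀ g, g * z = z * g := fun g => (Subgroup.mem_center_iff.mp hz) g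
      have c2 : ∀ g, g * z' = z' * g := fun g => (Subgroup.mem_center_iff.mp hz') g
      have c3 : ∀ g, g * z⁻¹ = z⁻¹ * g := fun g =>
        (Subgroup.mem_center_iff.mp (inv_mem hz)) g
      have c4 : ∀ g, g * z'⁻¹ = z'⁻¹ * g := fun g =>
        (Subgroup.mem_center_iff.mp (inv_mem hz')) g
      rw [hx, hx', commutatorElement_def, commutatorElement_def]
      simp only [mul_inv_rev]
      calc y * y' * y⁻¹ * y'⁻¹ = (z * z⁻¹) * (z' * z'⁻¹) * (y * y' * y⁻¹ * y'⁻¹) := by group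
        _ = z * y * (z' * y') * (y⁻¹ * z⁻¹) * (y'⁻¹ * z'⁻¹) := by
          rw [c3 y⁻¹, c4 y'⁻¹]
          have : z * y * (z' * y') * (z⁻¹ * y⁻¹) * (z'⁻¹ * y'⁻¹)
              = z * (y * z') * (y' * z⁻¹) * (y⁻¹ * z'⁻¹) * y'⁻¹ := by group
          rw [this, c2 y, c3 y', c4 y⁻¹]
          have : z * (z' * y) * (z⁻¹ * y') * (z'⁻¹ * y⁻¹) * y'⁻¹
              = z * z' * (y * z⁻¹) * (y' * z'⁻¹) * y⁻¹ * y'⁻¹ := by group
          rw [this, c3 y, c4 y']
          have : z * z' * (z⁻¹ * y) * (z'⁻¹ * y') * y⁻¹ * y'⁻¹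
              = z * (z' * z⁻¹) * (y * z'⁻¹) * y' * y⁻¹ * y'⁻¹ := by group
          rw [this, c3 z', c4 y]
          group
    change κ' ⁅x, x'⁆ = κ ⁅x, x'⁆
    calc κ' ⁅x, x'⁆ = κ' x * κ' x' * κ' x⁻¹ * κ' x'⁻¹ := by
          rw [commutatorElement_def, map_mul, map_mul, map_mul]
      _ = κ y * κ y' * κ y⁻¹ * κ y'⁻¹ := by
          rw [e1, e2, hom_inv_eq κ' κ e1, hom_inv_eq κ' κ e2]
      _ = κ ⁅y, y'⁆ := by rw [commutatorElement_def, map_mul, map_mul, map_mul]
      _ = κ ⁅x, x'⁆ := by rw [e3]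
  intro x
  have hx : x ∈ N := hN' ▸ Subgroup.mem_top x
  have hx' : δ * κ x * δi = κ x := hx
  calc δ * κ x = δ * κ x * (δi * δ) := by rw [h2, mul_one]
    _ = (δ * κ x * δi) * δ := by simp [mul_assoc]
    _ = κ x * δ := by rw [hx']

end qsg

end Cfsg.Agent.Lib.Helper51.PGV
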