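import Mathlib

/-! Fixed points of permutations of prime order on invariant subsets; the coset action of an
automorphism. -/

set_option autoImplicit false

namespace Cfsg.Agent.Lib.Helper51.CoprimeInv

section perm

variable {Ω : Type*} [Finite Ω]

omit [Finite Ω] in
theorem pow_mem_of_invariant (π : Equiv.Perm Ω) (Θ : Set Ω) (hΘ : ∀ x, x ∈ Θ → π x ∈ Θ) (k : ℕ) :
    ∀ x, x ∈ Θ → (π ^ k) x ∈ Θ := by
  induction k with
  | zero => intro x hx; simpa using hx
  | succ k ih =>
    intro x hx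
    rw [pow_succ', Equiv.Perm.mul_apply]
    exact hΘ _ (ih x hx)

theorem invariant_iff (π : Equiv.Perm Ω) (p : ℕ) (hp : 0 < p) (hπ : π ^ p = 1) (Θ : Set Ω)
    (hΘ : ∀ x, x ∈ Θ → π x ∈ Θ) : ∀ x, π x ∈ Θ ↔ x ∈ Θ := by
  intro x
  refine ⟨fun h => ?_, hΘ x⟩
  have h1 := pow_mem_of_invariant π Θ hΘ (p - 1) (π x) h
  have h2 : (π ^ (p - 1)) (π x) = x := by
    rw [← Equiv.Perm.mul_apply, ← pow_succ, Nat.sub_add_cancel hp, hπ, Equiv.Perm.one_apply]
  rwa [h2] at h1

theorem exists_fixed_in_set (π : Equiv.Perm Ω) (p : ℕ) [hp : Fact p.Prime] (hπ : π ^ p = 1)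
    (Θ : Set Ω) (hΘ : ∀ x, x ∈ Θ → π x ∈ Θ) (hcard : ¬ p ∣ Nat.card Θ) : ∃ x ∈ Θ, π x = x := by
  classical
  have : Fintype Θ := Fintype.ofFinite _
  have hiff := invariant_iff π p hp.out.pos hπ Θ hΘ
  have h1 : (Equiv.Perm.subtypePerm π hiff) ^ p ^ 1 = 1 := by
    rw [pow_one, Equiv.Perm.subtypePerm_pow]
    ext x
    simp [hπ]
  rw [Nat.card_eq_fintype_card] at hcard
  obtain ⟨a, ha⟩ := Equiv.Perm.exists_fixed_point_of_prime hcard h1
  exact ⟨a.1, a.2, congrArg Subtype.val ha⟩

theorem exists_other_fixed_in_set (π : Equiv.Perm Ω) (p : ℕ) [hp : Fact p.Prime] (hπ : π ^ p = 1)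
    (Θ : Set Ω) (hΘ : ∀ x, x ∈ Θ → π x ∈ Θ) (hcard : p ∣ Nat.card Θ) {a : Ω} (ha : a ∈ Θ)
    (hfix : π a = a) : ∃ b ∈ Θ, π b = b ∧ b ≠ a := by
  classical
  have : Fintype Θ := Fintype.ofFinite _
  have hiff := invariant_iff π p hp.out.pos hπ Θ hΘ
  have h1 : (Equiv.Perm.subtypePerm π hiff) ^ p ^ 1 = 1 := by
    rw [pow_one, Equiv.Perm.subtypePerm_pow]
    ext x
    simp [hπ]
  rw [Nat.card_eq_fintype_card] at hcard
  obtain ⟨b, hb, hne⟩ := Equiv.Perm.exists_fixed_point_of_prime' hcard h1 (a := ⟨a, ha⟩)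
    (Subtype.ext hfix)
  exact ⟨b.1, b.2, congrArg Subtype.val hb, fun h => hne (Subtype.ext h)⟩

end perm

section aut

variable {G : Type*} [Group G]

/-- the fixed points of an automorphism -/
def fixH (α : MulAut G) : Subgroup G where
  carrier := {x | α x = x}
  mul_mem' := by
    intro a b ha hb
    change α (a * b) = a * b
    rw [map_mul, ha, hb]
  one_mem' := map_one α
  inv_mem' := by
    intro a ha
    change α a⁻¹ = a⁻¹
    rw [map_inv, ha]

theorem mem_fixH {α : MulAut G} {x : G} : x ∈ fixH α ↔ α x = x := Iff.rfl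

theorem mem_fixH_of_inv_mul [Finite G] {α : MulAut G} {r : ℕ} (hr : r.Prime) (hαr : α ^ r = 1)
    (hrG : ¬ r ∣ Nat.card G) {g : G} (h : g⁻¹ * α g ∈ fixH α) : g ∈ fixH α := by
  set c := g⁻¹ * α g with hc
  have hαg : α g = g * c := by rw [hc]; group
  have hpow : ∀ k : ℕ, (α ^ k) g = g * c ^ k := by
    intro k
    induction k with
    | zero => simp
    | succ k ih =>
      rw [pow_succ', MulAut.mul_apply, ih, map_mul, map_pow, mem_fixH.mp h, hαg, pow_succ',
        mul_assoc]
  have h1 := hpow r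
  rw [hαr, MulAut.one_apply] at h1
  have hcr : c ^ r = 1 := by simpa using h1.symm
  have hc1 : c = 1 := by
    have hd := orderOf_dvd_of_pow_eq_one hcr
    rcases (Nat.dvd_prime hr).mp hd with h0 | h0
    · exact orderOf_eq_one_iff.mp h0
    · exact absurd (h0 ▸ orderOf_dvd_natCard c) hrG
  rw [mem_fixH, hαg, hc1, mul_one]

/-- the map induced by `α` on the cosets of its fixed point subgroup -/
noncomputable def aMap (α : MulAut G) (q : G ⧸ fixH α) : G ⧸ fixH α :=
  ((α q.out : G) : G ⧸ fixH α)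

theorem aMap_mk (α : MulAut G) (x : G) : aMap α (x : G ⧸ fixH α) = ((α x : G) : G ⧸ fixH α) := by
  unfold aMap
  rw [QuotientGroup.eq, ← map_inv, ← map_mul]
  have h : ((x : G ⧸ fixH α).out)⁻¹ * x ∈ fixH α := by
    rw [← QuotientGroup.eq, QuotientGroup.out_eq']
  rw [mem_fixH.mp h]
  exact h

theorem aMap_smul (α : MulAut G) (g : G) (ω : G ⧸ fixH α) :
    aMap α (g • ω) = α g • aMap α ω := by
  induction ω using QuotientGroup.induction_on with
  | H x =>
    rw [MulAction.Quotient.smul_mk, aMap_mk, aMap_mk, MulAction.Quotient.smul_mk, smul_eq_mul,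
      smul_eq_mul, map_mul]

theorem aMap_injective (α : MulAut G) : Function.Injective (aMap α) := by
  intro a b
  induction a using QuotientGroup.induction_on with
  | H x =>
    induction b using QuotientGroup.induction_on with
    | H y =>
      rw [aMap_mk, aMap_mk, QuotientGroup.eq, QuotientGroup.eq, ← map_inv, ← map_mul]
      intro h
      exact α.injective h

/-- `aMap` as a permutation -/
noncomputable def aPerm [Finite G] (α : MulAut G) : Equiv.Perm (G ⧸ fixH α) :=
  Equiv.ofBijective (aMap α) (Finite.injective_iff_bijective.mp (aMap_injective α))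

theorem aPerm_apply [Finite G] (α : MulAut G) (ω : G ⧸ fixH α) : aPerm α ω = aMap α ω := rfl

theorem aPerm_pow_mk [Finite G] (α : MulAut G) (k : ℕ) (x : G) :
    (aPerm α ^ k) (x : G ⧸ fixH α) = (((α ^ k) x : G) : G ⧸ fixH α) := by
  induction k with
  | zero => simp
  | succ k ih => rw [pow_succ', Equiv.Perm.mul_apply, ih, aPerm_apply, aMap_mk, pow_succ',
      MulAut.mul_apply]

theorem aPerm_pow_eq_one [Finite G] {α : MulAut G} {r : ℕ} (hαr : α ^ r = 1) : aPerm α ^ r = 1 := by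
  ext ω
  induction ω using QuotientGroup.induction_on with
  | H x => rw [aPerm_pow_mk, hαr]; rfl

theorem aPerm_fixed_iff [Finite G] {α : MulAut G} {r : ℕ} (hr : r.Prime) (hαr : α ^ r = 1)
    (hrG : ¬ r ∣ Nat.card G) (ω : G ⧸ fixH α) : aPerm α ω = ω ↔ ω = ((1 : G) : G ⧸ fixH α) := by
  induction ω using QuotientGroup.induction_on with
  | H x =>
    rw [aPerm_apply, aMap_mk]
    constructor
    · intro h
      rw [eq_comm, QuotientGroup.eq] at h
      have := mem_fixH_of_inv_mul hr hαr hrG h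
      rw [eq_comm, QuotientGroup.eq]
      simpa using this
    · intro h
      rw [eq_comm, QuotientGroup.eq] at h
      have hx : x ∈ fixH α := by simpa using h
      rw [mem_fixH.mp hx]

end aut

end Cfsg.Agent.Lib.Helper51.CoprimeInv
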