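import Mathlib
import Cfsg.Agent.Lib.Helper51.CoprimeInvA

/-! A coprime automorphism of prime order centralizing the centralizer of an involution `τ`:
`τ` is the only conjugate of `τ` fixed by the automorphism (modulo the core). -/

set_option autoImplicit false

namespace Cfsg.Agent.Lib.Helper51.CoprimeInv

variable {G : Type*} [Group G] [Finite G]

/-- the standing hypothesis -/
structure Hyp (α : MulAut G) (r : ℕ) (τ : G) : Prop where
  hr : r.Prime
  hαr : α ^ r = 1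
  hrG : ¬ r ∣ Nat.card G
  hτ : τ * τ = 1
  hC : ∀ c : G, c * τ = τ * c → α c = c

variable {α : MulAut G} {r : ℕ} {τ : G}

omit [Finite G] in
theorem Hyp.tau_fixed (h : Hyp α r τ) : α τ = τ := h.hC τ rfl

omit [Finite G] in
theorem Hyp.tau_inv (h : Hyp α r τ) : τ⁻¹ = τ := inv_eq_of_mul_eq_one_left h.hτ

omit [Finite G] in
theorem Hyp.conj_sq (h : Hyp α r τ) (g : G) : (g * τ * g⁻¹) * (g * τ * g⁻¹) = 1 := by
  calc (g * τ * g⁻¹) * (g * τ * g⁻¹) = g * (τ * τ) * g⁻¹ := by group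
    _ = 1 := by rw [h.hτ]; group

omit [Finite G] in
theorem Hyp.conj_inv (h : Hyp α r τ) (g : G) : (g * τ * g⁻¹)⁻¹ = g * τ * g⁻¹ :=
  inv_eq_of_mul_eq_one_left (h.conj_sq g)

theorem Hyp.mem_of_conj_mem (h : Hyp α r τ) {y : G} (hy : y⁻¹ * τ * y ∈ fixH α) : y ∈ fixH α := by
  have h1 : (α y)⁻¹ * τ * α y = y⁻¹ * τ * y := by
    have := mem_fixH.mp hy
    rwa [map_mul, map_mul, map_inv, h.tau_fixed] at this
  have h2 : (α y * y⁻¹) * τ = τ * (α y * y⁻¹) := by
    calc (α y * y⁻¹) * τ = α y * (y⁻¹ * τ * y) * y⁻¹ := by group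
      _ = α y * ((α y)⁻¹ * τ * α y) * y⁻¹ := by rw [h1]
      _ = τ * (α y * y⁻¹) := by group
  have h3 : α y * y⁻¹ ∈ fixH α := h.hC _ h2
  have h4 : y⁻¹ ∈ fixH α := by
    apply mem_fixH_of_inv_mul h.hr h.hαr h.hrG
    have : (y⁻¹)⁻¹ * α y⁻¹ = (α y * y⁻¹)⁻¹ := by rw [map_inv]; group
    rw [this]
    exact (fixH α).inv_mem h3
  simpa using (fixH α).inv_mem h4

theorem Hyp.fix_conj_iff (h : Hyp α r τ) (g : G) (ω : G ⧸ fixH α) :
    (g * τ * g⁻¹) • ω = ω ↔ ω = (g : G ⧸ fixH α) := by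
  induction ω using QuotientGroup.induction_on with
  | H x =>
    rw [MulAction.Quotient.smul_mk, smul_eq_mul, QuotientGroup.eq, QuotientGroup.eq]
    have e : (g * τ * g⁻¹ * x)⁻¹ * x = (g⁻¹ * x)⁻¹ * τ * (g⁻¹ * x) := by
      conv_rhs => rw [← h.tau_inv]
      group
    rw [e]
    constructor
    · intro h1
      have := (fixH α).inv_mem (h.mem_of_conj_mem h1)
      simpa using this
    · intro h1
      have h2 : g⁻¹ * x ∈ fixH α := by
        have := (fixH α).inv_mem h1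
        simpa using this
      exact (fixH α).mul_mem ((fixH α).mul_mem ((fixH α).inv_mem h2) h.tau_fixed) h2

/-- the `α`-invariant subgroup generated by `t` -/
def EE (α : MulAut G) (t : G) : Subgroup G := Subgroup.closure {s | ∃ k : ℕ, s = (α ^ k) t}

omit [Finite G] in
theorem self_mem_EE (α : MulAut G) (t : G) : t ∈ EE α t := Subgroup.subset_closure ⟨0, by simp⟩

omit [Finite G] in
theorem apply_mem_EE (α : MulAut G) (t : G) : ∀ e ∈ EE α t, α e ∈ EE α t := by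
  have : EE α t ≤ (EE α t).comap α.toMonoidHom := by
    unfold EE
    rw [Subgroup.closure_le]
    rintro _ ⟨k, rfl⟩
    apply Subgroup.subset_closure
    exact ⟨k + 1, by rw [pow_succ', MulAut.mul_apply]; rfl⟩
  exact fun e he => this he

omit [Finite G] in
theorem EE_conj (α : MulAut G) (t d : G) (hd : α d = d) (ht : t * d * t⁻¹ = d⁻¹) :
    ∀ e ∈ EE α t, e * d * e⁻¹ = d ∨ e * d * e⁻¹ = d⁻¹ := by
  let K : Subgroup G :=
    { carrier := {e | e * d * e⁻¹ = d ∨ e * d * e⁻¹ = d⁻¹}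
      mul_mem' := by
        intro a b ha hb
        have e : a * b * d * (a * b)⁻¹ = a * (b * d * b⁻¹) * a⁻¹ := by group
        have e2 : ∀ a : G, a * d⁻¹ * a⁻¹ = (a * d * a⁻¹)⁻¹ := by intro a; group
        change a * b * d * (a * b)⁻¹ = d ∨ a * b * d * (a * b)⁻¹ = d⁻¹
        rw [e]
        rcases hb with hb | hb <;> rcases ha with ha | ha
        · left; rw [hb, ha]
        · right; rw [hb, ha]
        · right; rw [hb, e2, ha]
        · left; rw [hb, e2, ha, inv_inv]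
      one_mem' := by left; simp
      inv_mem' := by
        intro a ha
        change a⁻¹ * d * a⁻¹⁻¹ = d ∨ a⁻¹ * d * a⁻¹⁻¹ = d⁻¹
        rcases ha with ha | ha
        · left
          conv_lhs => rw [← ha]
          group
        · right
          calc a⁻¹ * d * a⁻¹⁻¹ = (a⁻¹ * d⁻¹ * a)⁻¹ := by group
            _ = (a⁻¹ * (a * d * a⁻¹) * a)⁻¹ := by rw [ha]
            _ = d⁻¹ := by group }
  have : EE α t ≤ K := by
    unfold EE
    rw [Subgroup.closure_le]
    rintro _ ⟨k, rfl⟩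
    right
    have hdk : (α ^ k) d = d := by
      induction k with
      | zero => simp
      | succ k ih => rw [pow_succ', MulAut.mul_apply, ih, hd]
    calc (α ^ k) t * d * ((α ^ k) t)⁻¹ = (α ^ k) (t * d * t⁻¹) := by
          rw [map_mul, map_mul, map_inv, hdk]
      _ = d⁻¹ := by rw [ht, map_inv, hdk]
  exact fun e he => this he

omit [Finite G] in
theorem toPerm_sq {Ω : Type*} [MulAction G Ω] {t : G} (ht : t * t = 1) :
    (MulAction.toPerm t : Equiv.Perm Ω) ^ 2 = 1 := by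
  ext ω
  rw [sq, Equiv.Perm.mul_apply, MulAction.toPerm_apply, MulAction.toPerm_apply, smul_smul, ht,
    one_smul]
  rfl

/-- a conjugate of `τ` is conjugate, inside the `α`-invariant subgroup it generates, to a fixed
point of `α` -/
theorem Hyp.exists_conj_mem (h : Hyp α r τ) (g : G) :
    ∃ e ∈ EE α (g * τ * g⁻¹), e * (g * τ * g⁻¹) * e⁻¹ ∈ fixH α := by
  have : Fact r.Prime := ⟨h.hr⟩
  have : Fact (Nat.Prime 2) := ⟨Nat.prime_two⟩
  set t := g * τ * g⁻¹ with ht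
  set σ : G ⧸ fixH α := (g : G ⧸ fixH α) with hσ
  set Θ : Set (G ⧸ fixH α) := MulAction.orbit (EE α t) σ with hΘ
  have hmem : ∀ ω, ω ∈ Θ ↔ ∃ e ∈ EE α t, e • σ = ω := by
    intro ω
    rw [hΘ, MulAction.mem_orbit_iff]
    constructor
    · rintro ⟨e, rfl⟩
      exact ⟨e.1, e.2, rfl⟩
    · rintro ⟨e, he, rfl⟩
      exact ⟨⟨e, he⟩, rfl⟩
  have hinv : ∀ s ∈ EE α t, ∀ x, x ∈ Θ → (MulAction.toPerm s : Equiv.Perm (G ⧸ fixH α)) x ∈ Θ := by
    intro s hs x hx
    obtain ⟨e, he, rfl⟩ := (hmem x).mp hx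
    rw [MulAction.toPerm_apply, smul_smul]
    exact (hmem _).mpr ⟨s * e, (EE α t).mul_mem hs he, rfl⟩
  have hσΘ : σ ∈ Θ := (hmem σ).mpr ⟨1, (EE α t).one_mem, one_smul _ _⟩
  have hdvd : Nat.card Θ ∣ Nat.card G := by
    have h1 : Nat.card Θ = (MulAction.stabilizer (EE α t) σ).index := by
      rw [MulAction.index_stabilizer, Nat.card_coe_set_eq]
    rw [h1]
    exact (Subgroup.index_dvd_card _).trans (Subgroup.card_subgroup_dvd_card _)
  have hodd : ¬ 2 ∣ Nat.card Θ := by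
    intro h2
    obtain ⟨b, -, hb, hne⟩ := exists_other_fixed_in_set (MulAction.toPerm t) 2
      (toPerm_sq (h.conj_sq g)) Θ (hinv t (self_mem_EE α t)) h2 hσΘ
      ((h.fix_conj_iff g σ).mpr rfl)
    exact hne ((h.fix_conj_iff g b).mp hb)
  have ht1 : α t = α g * τ * (α g)⁻¹ := by
    rw [ht, map_mul, map_mul, map_inv, h.tau_fixed]
  have hαt : α t ∈ EE α t := apply_mem_EE α t t (self_mem_EE α t)
  have hασ : ((α g : G) : G ⧸ fixH α) ∈ Θ := by
    obtain ⟨x, hx, hfx⟩ := exists_fixed_in_set (MulAction.toPerm (α t)) 2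
      (toPerm_sq (by rw [ht1]; exact h.conj_sq (α g))) Θ (hinv _ hαt) hodd
    rw [MulAction.toPerm_apply, ht1] at hfx
    rw [← (h.fix_conj_iff (α g) x).mp hfx]
    exact hx
  have hainv : ∀ x, x ∈ Θ → aPerm α x ∈ Θ := by
    intro x hx
    obtain ⟨e, he, rfl⟩ := (hmem x).mp hx
    obtain ⟨e₀, he₀, h₀⟩ := (hmem _).mp hασ
    rw [aPerm_apply, aMap_smul, hσ, aMap_mk, ← h₀, smul_smul]
    exact (hmem _).mpr ⟨α e * e₀, (EE α t).mul_mem (apply_mem_EE α t e he) he₀, rfl⟩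
  obtain ⟨x, hx, hfx⟩ := exists_fixed_in_set (aPerm α) r (aPerm_pow_eq_one h.hαr) Θ hainv
    (fun hd => h.hrG (hd.trans hdvd))
  rw [aPerm_fixed_iff h.hr h.hαr h.hrG] at hfx
  obtain ⟨e, he, h1⟩ := (hmem x).mp hx
  refine ⟨e, he, ?_⟩
  rw [hfx, hσ, MulAction.Quotient.smul_mk, smul_eq_mul, eq_comm, QuotientGroup.eq] at h1
  have h2 : e * g ∈ fixH α := by simpa using h1
  have e1 : e * t * e⁻¹ = (e * g) * τ * (e * g)⁻¹ := by rw [ht]; group
  rw [e1]
  exact (fixH α).mul_mem ((fixH α).mul_mem h2 h.tau_fixed) ((fixH α).inv_mem h2)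

omit [Finite G] in
theorem inv_lemma (t t' : G) (htt : t * t = 1) (htt' : t' * t' = 1) :
    t * (t * t') * t⁻¹ = (t * t')⁻¹ := by
  have h1 : t⁻¹ = t := inv_eq_of_mul_eq_one_left htt
  have h2 : t'⁻¹ = t' := inv_eq_of_mul_eq_one_left htt'
  rw [mul_inv_rev, h1, h2, ← mul_assoc, htt, one_mul]

/-- two conjugates of `τ` moving the base point to the same point have the same fixed point -/
theorem Hyp.claimA (h : Hyp α r τ) (g g' : G)
    (hgg : (g * τ * g⁻¹) • ((1 : G) : G ⧸ fixH α) = (g' * τ * g'⁻¹) • ((1 : G) : G ⧸ fixH α)) :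
    (g : G ⧸ fixH α) = (g' : G ⧸ fixH α) := by
  set t := g * τ * g⁻¹ with ht
  set t' := g' * τ * g'⁻¹ with ht'
  have htt : t * t = 1 := h.conj_sq g
  have htt' : t' * t' = 1 := h.conj_sq g'
  have htinv : t⁻¹ = t := h.conj_inv g
  have htinv' : t'⁻¹ = t' := h.conj_inv g'
  set d := t * t' with hd
  have hdH : d ∈ fixH α := by
    rw [MulAction.Quotient.smul_mk, MulAction.Quotient.smul_mk, smul_eq_mul, smul_eq_mul, mul_one,
      mul_one, QuotientGroup.eq, htinv] at hgg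
    exact hgg
  have hdinv : t * d * t⁻¹ = d⁻¹ := by
    exact inv_lemma t t' htt htt'
  obtain ⟨e, he, heH⟩ := h.exists_conj_mem g
  have hx : ∃ x : G, x * t * x⁻¹ ∈ fixH α ∧ x * d * x⁻¹ = d := by
    rcases EE_conj α t d hdH hdinv e he with h1 | h1
    · exact ⟨e, heH, h1⟩
    · refine ⟨e * t, ?_, ?_⟩
      · have : e * t * t * (e * t)⁻¹ = e * t * e⁻¹ := by group
        rw [this]
        exact heH
      · have : e * t * d * (e * t)⁻¹ = e * (t * d * t⁻¹) * e⁻¹ := by group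
        rw [this, hdinv]
        have : e * d⁻¹ * e⁻¹ = (e * d * e⁻¹)⁻¹ := by group
        rw [this, h1, inv_inv]
  obtain ⟨x, hx1, hx2⟩ := hx
  have hx3 : x * t' * x⁻¹ ∈ fixH α := by
    have e1 : t' = t * d := by rw [hd, ← mul_assoc, htt, one_mul]
    have e2 : x * t' * x⁻¹ = (x * t * x⁻¹) * (x * d * x⁻¹) := by rw [e1]; group
    rw [e2, hx2]
    exact (fixH α).mul_mem hx1 hdH
  have f1 : t • ((x⁻¹ : G) : G ⧸ fixH α) = ((x⁻¹ : G) : G ⧸ fixH α) := by
    rw [MulAction.Quotient.smul_mk, smul_eq_mul, QuotientGroup.eq]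
    have : (t * x⁻¹)⁻¹ * x⁻¹ = x * t⁻¹ * x⁻¹ := by group
    rw [this, htinv]
    exact hx1
  have f2 : t' • ((x⁻¹ : G) : G ⧸ fixH α) = ((x⁻¹ : G) : G ⧸ fixH α) := by
    rw [MulAction.Quotient.smul_mk, smul_eq_mul, QuotientGroup.eq]
    have : (t' * x⁻¹)⁻¹ * x⁻¹ = x * t'⁻¹ * x⁻¹ := by group
    rw [this, htinv']
    exact hx3
  rw [← (h.fix_conj_iff g _).mp f1, (h.fix_conj_iff g' _).mp f2]

/-- the image of the base point under a conjugate of `τ` depends only on its fixed point -/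
theorem Hyp.smul_one_eq (h : Hyp α r τ) (g g' : G) (hgg : (g : G ⧸ fixH α) = (g' : G ⧸ fixH α)) :
    (g * τ * g⁻¹) • ((1 : G) : G ⧸ fixH α) = (g' * τ * g'⁻¹) • ((1 : G) : G ⧸ fixH α) := by
  let s : G ⧸ fixH α → G ⧸ fixH α := fun ω => (ω.out * τ * ω.out⁻¹) • ((1 : G) : G ⧸ fixH α)
  have hinj : Function.Injective s := by
    intro ω ω' hs
    have := h.claimA ω.out ω'.out hs
    rwa [QuotientGroup.out_eq', QuotientGroup.out_eq'] at this
  have hsurj : Function.Surjective s := Finite.injective_iff_surjective.mp hinj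
  have key : ∀ k : G, (k * τ * k⁻¹) • ((1 : G) : G ⧸ fixH α) = s (k : G ⧸ fixH α) := by
    intro k
    obtain ⟨ω', hω'⟩ := hsurj ((k * τ * k⁻¹) • ((1 : G) : G ⧸ fixH α))
    have := h.claimA ω'.out k hω'
    rw [QuotientGroup.out_eq'] at this
    rw [← hω', this]
  rw [key g, key g', hgg]

/-- a conjugate of `τ` fixed by `α` differs from `τ` by an element of the core of `C_G(α)` -/
theorem Hyp.mem_normalCore (h : Hyp α r τ) (k : G) (hk : k * τ * k⁻¹ ∈ fixH α) :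
    (k * τ * k⁻¹)⁻¹ * τ ∈ (fixH α).normalCore := by
  have hkH : k ∈ fixH α := by
    have : k⁻¹ ∈ fixH α := h.mem_of_conj_mem (by simpa using hk)
    simpa using (fixH α).inv_mem this
  intro g
  have h1 := h.smul_one_eq (g * k) g (by
    rw [QuotientGroup.eq]
    have : (g * k)⁻¹ * g = k⁻¹ := by group
    rw [this]
    exact (fixH α).inv_mem hkH)
  rw [MulAction.Quotient.smul_mk, MulAction.Quotient.smul_mk, smul_eq_mul, smul_eq_mul, mul_one,
    mul_one, QuotientGroup.eq] at h1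
  have : g * ((k * τ * k⁻¹)⁻¹ * τ) * g⁻¹ = (g * k * τ * (g * k)⁻¹)⁻¹ * (g * τ * g⁻¹) := by group
  rw [this]
  exact h1

/-- the index of `C_G(α)` is odd -/
theorem Hyp.odd_index (h : Hyp α r τ) : ¬ 2 ∣ Nat.card (G ⧸ fixH α) := by
  have : Fact (Nat.Prime 2) := ⟨Nat.prime_two⟩
  intro h2
  have h3 : 2 ∣ Nat.card (Set.univ : Set (G ⧸ fixH α)) := by
    rwa [Nat.card_congr (Equiv.Set.univ _)]
  have e : (1 : G) * τ * (1 : G)⁻¹ = τ := by group
  obtain ⟨b, -, hb, hne⟩ := exists_other_fixed_in_set (MulAction.toPerm τ) 2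
    (toPerm_sq h.hτ) Set.univ (fun _ _ => Set.mem_univ _) h3
    (a := ((1 : G) : G ⧸ fixH α)) (Set.mem_univ _) (by
      have := (h.fix_conj_iff 1 ((1 : G) : G ⧸ fixH α)).mpr rfl
      rwa [e] at this)
  apply hne
  have := (h.fix_conj_iff 1 b).mp (by rw [e]; exact hb)
  exact this

/-- a `2`-subgroup containing `τ` is centralized by `α` -/
theorem Hyp.le_fixH (h : Hyp α r τ) (P : Subgroup G) (hP : IsPGroup 2 P) (hτP : τ ∈ P) :
    P ≤ fixH α := by
  have : Fact (Nat.Prime 2) := ⟨Nat.prime_two⟩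
  obtain ⟨ω, hω⟩ := hP.nonempty_fixed_point_of_prime_not_dvd_card (G ⧸ fixH α) h.odd_index
  have e : (1 : G) * τ * (1 : G)⁻¹ = τ := by group
  have h1 : τ • ω = ω := hω ⟨τ, hτP⟩
  have h2 : ω = ((1 : G) : G ⧸ fixH α) := (h.fix_conj_iff 1 ω).mp (by rw [e]; exact h1)
  intro x hx
  have h3 : x • ω = ω := hω ⟨x, hx⟩
  rw [h2, MulAction.Quotient.smul_mk, smul_eq_mul, mul_one, eq_comm, QuotientGroup.eq] at h3
  simpa using h3

end Cfsg.Agent.Lib.Helper51.CoprimeInv
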