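import Mathlib
import Cfsg.Prelude.Def_DStar
import Cfsg.Agent.Lib.Helper51.PGroup

/-!
Basic theory of the subgroup `D*(S)` of a finite nilpotent group.
-/

set_option autoImplicit false

namespace Cfsg.Agent.Lib.Helper51

open Subgroup
open scoped commutatorElement

variable {S : Type*} [Group S]

theorem le_normalizer_commutator (U A : Subgroup S) (h : A ≤ normalizer (U : Set S)) :
    A ≤ normalizer ((⁅U, A⁆ : Subgroup S) : Set S) := by
  intro a ha
  rw [mem_normalizer_iff_map_conj_eq, map_commutator, mem_normalizer_iff_map_conj_eq.mp (h ha),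
    mem_normalizer_iff_map_conj_eq.mp (le_normalizer ha)]

/-- A member of the family centralizes every abelian normal subgroup. -/
theorem le_centralizer_of_mem_dStarFamily [Finite S] [Group.IsNilpotent S] {A B : Subgroup S}
    (hA : A ∈ Cfsg.dStarFamily S) (hBc : B ≤ centralizer (B : Set S)) (hAB : A ≤ normalizer (B : Set S)) :
    A ≤ centralizer (B : Set S) := by
  have hAc : A ≤ centralizer (A : Set S) := le_centralizer_iff_isMulCommutative.mpr hA.1
  have key : ∀ n : ℕ, ∀ U : Subgroup S, Nat.card U = n → U ≤ B → A ≤ normalizer (U : Set S) →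
      U ≤ centralizer (A : Set S) := by
    intro n
    induction n using Nat.strong_induction_on with
    | _ n ih =>
      intro U hUn hUB hAU
      by_cases hU : U = ⊥
      · rw [hU]; exact bot_le
      have hlt : Nat.card ↥⁅U, A⁆ < n := hUn ▸ card_commutator_lt U A hU hAU
      have hle : ⁅U, A⁆ ≤ U := by
        rw [commutator_le]
        intro u hu a ha
        have : a * u⁻¹ * a⁻¹ ∈ U := (le_normalizer_iff.mp hAU) a ha _ (U.inv_mem hu)
        have h2 : ⁅u, a⁆ = u * (a * u⁻¹ * a⁻¹) := by simp [commutatorElement_def, mul_assoc]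
        rw [h2]; exact U.mul_mem hu this
      have hU' : ⁅U, A⁆ ≤ centralizer (A : Set S) :=
        ih _ hlt _ rfl (hle.trans hUB) (le_normalizer_commutator U A hAU)
      intro x hx
      have hmem : ∀ a ∈ A, ⁅a, x⁆ ∈ ⁅U, A⁆ := by
        intro a ha
        rw [← commutatorElement_inv]
        exact inv_mem (commutator_mem_commutator hx ha)
      have hcl := class_two_sup_zpowers A hAc x
        (fun a ha b hb => (mem_centralizer_iff.mp (hU' (hmem a ha))) b hb)
        (fun a ha => (mem_centralizer_iff.mp (hBc (hUB (hle (hmem a ha))))) x (hUB hx))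
      rw [mem_centralizer_iff]
      exact hA.2 x hcl
  rw [le_centralizer_iff]
  exact key _ B rfl le_rfl hAB

/-- `D*(S)` lies in every maximal normal abelian subgroup. -/
theorem dStar_le_of_maximal_normal_abelian [Finite S] [Group.IsNilpotent S] (B : Subgroup S) (hBn : B.Normal)
    (hBc : B ≤ centralizer (B : Set S))
    (hmax : ∀ B' : Subgroup S, B'.Normal → B' ≤ centralizer (B' : Set S) → B ≤ B' → B' = B) :
    Cfsg.dStar S ≤ B := by
  unfold Cfsg.dStar
  rw [sSup_le_iff]
  intro A hA
  exact (le_centralizer_of_mem_dStarFamily hA hBc le_normalizer_of_normal).trans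
    (centralizer_le_of_maximal_normal_abelian B hBn hBc hmax)

theorem dStar_le_centralizer [Finite S] [Group.IsNilpotent S] :
    Cfsg.dStar S ≤ centralizer (Cfsg.dStar S : Set S) := by
  obtain ⟨B, -, hBn, hBc, hmax⟩ := exists_maximal_normal_abelian (⊥ : Subgroup S) inferInstance bot_le
  have h := dStar_le_of_maximal_normal_abelian B hBn hBc hmax
  exact h.trans (hBc.trans (centralizer_le (by exact_mod_cast h)))

theorem dStar_mem_dStarFamily [Finite S] [Group.IsNilpotent S] : Cfsg.dStar S ∈ Cfsg.dStarFamily S := by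
  refine ⟨le_centralizer_iff_isMulCommutative.mp dStar_le_centralizer, ?_⟩
  intro x hx
  have h : Cfsg.dStar S ≤ centralizer ({x} : Set S) := by
    unfold Cfsg.dStar
    rw [sSup_le_iff]
    intro A hA a ha
    rw [mem_centralizer_singleton_iff]
    have hle : A ⊔ zpowers x ≤ Cfsg.dStar S ⊔ zpowers x := sup_le_sup_right (le_sSup hA) _
    have hcl : ⁅⁅A ⊔ zpowers x, A ⊔ zpowers x⁆, A ⊔ zpowers x⁆ = ⊥ := by
      rw [eq_bot_iff, ← hx]
      exact commutator_mono (commutator_mono hle hle) hle
    exact hA.2 x hcl a ha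
  intro a ha
  exact mem_centralizer_singleton_iff.mp (h ha)

theorem le_dStar {A : Subgroup S} (hA : A ∈ Cfsg.dStarFamily S) : A ≤ Cfsg.dStar S := le_sSup hA

theorem center_mem_dStarFamily : center S ∈ Cfsg.dStarFamily S := by
  refine ⟨inferInstance, ?_⟩
  intro x _ a ha
  exact (mem_center_iff.mp ha x).symm

theorem map_mem_dStarFamily {T : Type*} [Group T] (e : S ≃* T) {A : Subgroup S} (hA : A ∈ Cfsg.dStarFamily S) :
    A.map e.toMonoidHom ∈ Cfsg.dStarFamily T := by
  constructor
  · have := hA.1
    exact Subgroup.map_isMulCommutative A e.toMonoidHom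
  · intro x hx a ha
    obtain ⟨b, hb, rfl⟩ := ha
    have h1 : (A ⊔ zpowers (e.symm x)).map e.toMonoidHom = A.map e.toMonoidHom ⊔ zpowers x := by
      rw [Subgroup.map_sup, MonoidHom.map_zpowers]; simp
    have h2 : ⁅⁅A ⊔ zpowers (e.symm x), A ⊔ zpowers (e.symm x)⁆, A ⊔ zpowers (e.symm x)⁆ = ⊥ := by
      have := hx
      rw [← h1, ← map_commutator, ← map_commutator] at this
      exact (Subgroup.map_eq_bot_iff_of_injective _ e.injective).mp this
    have h3 := hA.2 (e.symm x) h2 b hb
    have := congrArg e h3
    simpa using this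

theorem map_dStar {T : Type*} [Group T] (e : S ≃* T) : (Cfsg.dStar S).map e.toMonoidHom = Cfsg.dStar T := by
  apply le_antisymm
  · unfold Cfsg.dStar
    rw [Subgroup.map_le_iff_le_comap, sSup_le_iff]
    intro A hA
    rw [← Subgroup.map_le_iff_le_comap]
    exact le_sSup (map_mem_dStarFamily e hA)
  · conv_lhs => unfold Cfsg.dStar
    rw [sSup_le_iff]
    intro A hA
    have h1 := le_dStar (map_mem_dStarFamily e.symm hA)
    have h2 : A = (A.map e.symm.toMonoidHom).map e.toMonoidHom := by
      rw [Subgroup.map_map]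
      ext y; simp
    rw [h2]
    exact Subgroup.map_mono h1

instance dStar_characteristic : (Cfsg.dStar S).Characteristic := by
  rw [characteristic_iff_map_eq]
  intro e
  exact map_dStar e

end Cfsg.Agent.Lib.Helper51
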