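import Mathlib
import Cfsg.Agent.Lib.Helper51.DStar

/-!
`D*(T)` for a subgroup `T` of an ambient group, described inside the ambient group.
-/

set_option autoImplicit false

namespace Cfsg.Agent.Lib.Helper51

open Subgroup
open scoped commutatorElement

variable {G : Type*} [Group G]

/-- The family defining `D*(T)`, viewed in the ambient group. -/
def famOf (T : Subgroup G) : Set (Subgroup G) :=
  {A | A ≤ T ∧ A ≤ centralizer (A : Set G) ∧ ∀ x ∈ T,
    ⁅⁅A ⊔ zpowers x, A ⊔ zpowers x⁆, A ⊔ zpowers x⁆ = ⊥ → ∀ a ∈ A, a * x = x * a}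

theorem map_subtype_mem_famOf {T : Subgroup G} {A0 : Subgroup T} (h : A0 ∈ Cfsg.dStarFamily T) :
    A0.map T.subtype ∈ famOf T := by
  refine ⟨map_subtype_le A0, ?_, ?_⟩
  · have := h.1
    exact le_centralizer_iff_isMulCommutative.mpr (Subgroup.map_isMulCommutative A0 T.subtype)
  · intro x hx hcl a ha
    obtain ⟨a0, ha0, rfl⟩ := ha
    have h1 : (A0 ⊔ zpowers (⟨x, hx⟩ : T)).map T.subtype = A0.map T.subtype ⊔ zpowers x := by
      rw [Subgroup.map_sup, MonoidHom.map_zpowers]; rfl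
    have h2 : ⁅⁅A0 ⊔ zpowers (⟨x, hx⟩ : T), A0 ⊔ zpowers (⟨x, hx⟩ : T)⁆, A0 ⊔ zpowers (⟨x, hx⟩ : T)⁆ = ⊥ := by
      rw [← h1, ← map_commutator, ← map_commutator] at hcl
      exact (Subgroup.map_eq_bot_iff_of_injective _ T.subtype_injective).mp hcl
    have h3 := h.2 ⟨x, hx⟩ h2 a0 ha0
    exact congrArg Subtype.val h3

theorem subgroupOf_mem_dStarFamily {T A : Subgroup G} (h : A ∈ famOf T) :
    A.subgroupOf T ∈ Cfsg.dStarFamily T := by
  obtain ⟨hAT, hAc, hA⟩ := h
  constructor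
  · have : IsMulCommutative A := le_centralizer_iff_isMulCommutative.mp hAc
    infer_instance
  · intro x hcl a ha
    have h1 : (A.subgroupOf T ⊔ zpowers x).map T.subtype = A ⊔ zpowers (x : G) := by
      rw [Subgroup.map_sup, MonoidHom.map_zpowers, subgroupOf_map_subtype, inf_of_le_left hAT]; rfl
    have h2 : ⁅⁅A ⊔ zpowers (x : G), A ⊔ zpowers (x : G)⁆, A ⊔ zpowers (x : G)⁆ = ⊥ := by
      rw [← h1, ← map_commutator, ← map_commutator, hcl, Subgroup.map_bot]
    have h3 := hA x x.2 h2 a (mem_subgroupOf.mp ha)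
    exact Subtype.ext h3

theorem dStarOf_mem_famOf (T : Subgroup G) [Finite T] [Group.IsNilpotent T] : Cfsg.dStarOf T ∈ famOf T :=
  map_subtype_mem_famOf dStar_mem_dStarFamily

theorem le_dStarOf {T A : Subgroup G} (h : A ∈ famOf T) : A ≤ Cfsg.dStarOf T := by
  have h1 := le_dStar (subgroupOf_mem_dStarFamily h)
  have h2 := Subgroup.map_mono (f := T.subtype) h1
  rw [subgroupOf_map_subtype, inf_of_le_left h.1] at h2
  exact h2

theorem map_mem_famOf (e : G ≃* G) {T A : Subgroup G} (h : A ∈ famOf T) :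
    A.map e.toMonoidHom ∈ famOf (T.map e.toMonoidHom) := by
  obtain ⟨hAT, hAc, hA⟩ := h
  refine ⟨Subgroup.map_mono hAT, ?_, ?_⟩
  · rw [centralizer_map_equiv]; exact Subgroup.map_mono hAc
  · rintro _ ⟨x, hx, rfl⟩ hcl _ ⟨a, ha, rfl⟩
    have h1 : (A ⊔ zpowers x).map e.toMonoidHom = A.map e.toMonoidHom ⊔ zpowers (e.toMonoidHom x) := by
      rw [Subgroup.map_sup, MonoidHom.map_zpowers]
    have h2 : ⁅⁅A ⊔ zpowers x, A ⊔ zpowers x⁆, A ⊔ zpowers x⁆ = ⊥ := by
      rw [← h1, ← map_commutator, ← map_commutator] at hcl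
      exact (Subgroup.map_eq_bot_iff_of_injective _ e.injective).mp hcl
    have h3 := hA x hx h2 a ha
    rw [← map_mul, ← map_mul, h3]

/-- `D*(T)` is normalized by `N_G(T)`. -/
theorem normalizer_le_normalizer_dStarOf (T : Subgroup G) [Finite T] [Group.IsNilpotent T] :
    normalizer (T : Set G) ≤ normalizer (Cfsg.dStarOf T : Set G) := by
  rw [le_normalizer_iff]
  intro g hg d hd
  have h1 := map_mem_famOf (MulAut.conj g) (dStarOf_mem_famOf T)
  have h2 : T.map (MulAut.conj g).toMonoidHom = T := mem_normalizer_iff_map_conj_eq.mp hg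
  rw [h2] at h1
  exact le_dStarOf h1 ⟨d, hd, by simp [MulAut.conj_apply]⟩

end Cfsg.Agent.Lib.Helper51
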