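import Mathlib
import Cfsg.Agent.Lib.Helper51.PGVBase

/-! Configurations for the `P(G,V)`-theorem, the `A × B`-lemma and the descent to submodules. -/

set_option autoImplicit false

namespace Cfsg.Agent.Lib.Helper51.PGV

universe u v w

open scoped commutatorElement

section axb

variable {p : ℕ} [hp : Fact p.Prime]
variable {V : Type v} [AddCommGroup V] [Module (ZMod p) V] [Finite V]
variable {P : Type*} [Group P] [Finite P]

/-- Thompson's `A × B`-lemma for one `p'`-element -/
theorem axb_elem (hP : IsPGroup p P) (β : P →* Module.End (ZMod p) V) (y : Module.End (ZMod p) V)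
    (m : ℕ) (hm : m.Coprime p) (hy : y ^ m = 1) (hc : ∀ b, Commute (β b) y)
    (hfix : ∀ v, (∀ b, β b v = v) → y v = v) : y = 1 := by
  set T : Module.End (ZMod p) V := ∑ i ∈ Finset.range m, y ^ i with hT
  have hTc : ∀ b, Commute (β b) T := by
    intro b
    rw [hT]
    exact Commute.sum_right _ _ _ (fun i _ => (hc b).pow_right i)
  have hker : LinearMap.ker T = ⊥ := by
    by_contra hne
    have hinv : ∀ b, ∀ u ∈ LinearMap.ker T, β b u ∈ LinearMap.ker T := by
      intro b u hu
      rw [LinearMap.mem_ker] at hu ⊢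
      have := congrArg (fun f => f u) (hTc b).eq
      simp only [Module.End.mul_apply] at this
      rw [← this, hu, map_zero]
    obtain ⟨x, hx, hx0, hxf⟩ := exists_fixed_in hP β _ hinv hne
    have hyx : y x = x := hfix x hxf
    have hpow : ∀ i : ℕ, (y ^ i) x = x := by
      intro i
      induction i with
      | zero => simp
      | succ n ih => rw [pow_succ, Module.End.mul_apply, hyx, ih]
    have hTx : T x = (m : ZMod p) • x := by
      rw [hT, LinearMap.sum_apply, Finset.sum_congr rfl (fun i _ => hpow i), Finset.sum_const,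
        Finset.card_range, Nat.cast_smul_eq_nsmul]
    rw [LinearMap.mem_ker, hTx] at hx
    have hm0 : (m : ZMod p) ≠ 0 := by
      intro h
      rw [ZMod.natCast_eq_zero_iff] at h
      have := Nat.Coprime.eq_one_of_dvd (Nat.coprime_comm.mp hm) h
      exact hp.out.one_lt.ne' this
    exact hx0 ((smul_eq_zero.mp hx).resolve_left hm0)
  have hmul : T * (y - 1) = 0 := by
    rw [hT, geom_sum_mul, hy, sub_self]
  apply LinearMap.ext
  intro v
  have h1 : (y - 1) v ∈ LinearMap.ker T := by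
    rw [LinearMap.mem_ker]
    have := congrArg (fun f => f v) hmul
    simpa using this
  rw [hker, Submodule.mem_bot] at h1
  simpa [sub_eq_zero] using h1

variable {Q : Type w} [Group Q] [Finite Q]

/-- the `A × B`-lemma for a perfect group -/
theorem axb (hQ : QSG Q) (hP : IsPGroup p P) (β : P →* Module.End (ZMod p) V)
    (κ : Q →* Module.End (ZMod p) V) (hc : ∀ b x, Commute (β b) (κ x))
    (hfix : ∀ x v, (∀ b, β b v = v) → κ x v = v) : ∀ x, κ x = 1 := by
  have h1 := Cfsg.Agent.Lib.Helper31.le_closure_coprime_of_perfect (G := Q) p (K := ⊤) hQ.perfect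
  have h2 : Subgroup.closure {g : Q | g ∈ (⊤ : Subgroup Q) ∧ (orderOf g).Coprime p} ≤ κ.ker := by
    rw [Subgroup.closure_le]
    rintro g ⟨-, hg⟩
    change κ g = 1
    apply axb_elem hP β (κ g) (orderOf g) hg _ (fun b => hc b g) (hfix g)
    rw [← map_pow, pow_orderOf_eq_one, map_one]
  intro x
  exact h2 (h1 (Subgroup.mem_top x))

end axb

section cfg

variable {p : ℕ} [hp : Fact p.Prime]
variable {𝔄 : Type u} [Group 𝔄] {Q : Type w} [Group Q]
variable {V : Type v} [AddCommGroup V] [Module (ZMod p) V]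

/-- `κ` conjugated by `α b` -/
def cj (α : 𝔄 →* Module.End (ZMod p) V) (κ : Q →* Module.End (ZMod p) V) (b : 𝔄) :
    Q →* Module.End (ZMod p) V :=
  conjHom κ (α b) (α b⁻¹) (hom_mul_inv α b) (hom_inv_mul α b)

theorem cj_apply (α : 𝔄 →* Module.End (ZMod p) V) (κ : Q →* Module.End (ZMod p) V) (b : 𝔄) (x : Q) :
    cj α κ b x = α b * κ x * α b⁻¹ := rfl

/-- `b` normalizes the image of `κ` -/
def Nrm (α : 𝔄 →* Module.End (ZMod p) V) (κ : Q →* Module.End (ZMod p) V) (b : 𝔄) : Prop :=
  ∀ x, ∃ y, α b * κ x * α b⁻¹ = κ y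

/-- `b` moves the image of `κ` to a commuting subgroup -/
def Mov (α : 𝔄 →* Module.End (ZMod p) V) (κ : Q →* Module.End (ZMod p) V) (b : 𝔄) : Prop :=
  ∀ x y, Commute (α b * κ x * α b⁻¹) (κ y)

/-- a configuration: `𝔄` is an elementary abelian best offender, permuting the "conjugates" of `κ Q` -/
structure Cfg (α : 𝔄 →* Module.End (ZMod p) V) (κ : Q →* Module.End (ZMod p) V) : Prop where
  comm : ∀ x y : 𝔄, x * y = y * x
  exp : ∀ x : 𝔄, x ^ p = 1
  best : ∀ B : Subgroup 𝔄, Nat.card B * Nat.card (fixS α B) ≤ Nat.card 𝔄 * Nat.card (fixS α ⊤)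
  k3 : ∀ b, Nrm α κ b ∨ Mov α κ b

end cfg

/-- the induction hypothesis -/
def IH (p : ℕ) [Fact p.Prime] (Q : Type w) [Group Q] (n : ℕ) : Prop :=
  ∀ (𝔄 : Type u) [Group 𝔄] [Finite 𝔄] (V : Type v) [AddCommGroup V] [Module (ZMod p) V] [Finite V]
    (α : 𝔄 →* Module.End (ZMod p) V) (κ : Q →* Module.End (ZMod p) V),
    Nat.card V < n → Cfg α κ → (∃ a, Mov α κ a) → ∀ x, κ x = 1

section descend

variable {p : ℕ} [hp : Fact p.Prime]
variable {𝔄 : Type u} [Group 𝔄] [Finite 𝔄] {Q : Type w} [Group Q]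
variable {V : Type v} [AddCommGroup V] [Module (ZMod p) V] [Finite V]

theorem Cfg.isPGroup {α : 𝔄 →* Module.End (ZMod p) V} {κ : Q →* Module.End (ZMod p) V}
    (hc : Cfg α κ) : IsPGroup p 𝔄 := fun g => ⟨1, by rw [pow_one]; exact hc.exp g⟩

theorem Cfg.acomm {α : 𝔄 →* Module.End (ZMod p) V} {κ : Q →* Module.End (ZMod p) V}
    (hc : Cfg α κ) (a b : 𝔄) : Commute (α a) (α b) := by
  change α a * α b = α b * α a
  rw [← map_mul, ← map_mul, hc.comm]

theorem card_fixS_resHom (α : 𝔄 →* Module.End (ZMod p) V) (U : Submodule (ZMod p) V)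
    (h : ∀ m, ∀ u ∈ U, α m u ∈ U) (B : Subgroup 𝔄) :
    Nat.card (fixS (resHom α U h) B) = Nat.card (fixS α B ⊓ U : Submodule (ZMod p) V) := by
  apply Nat.card_congr
  refine ⟨fun z => ⟨z.1.1, fun b hb => ?_, z.1.2⟩, fun z => ⟨⟨z.1, z.2.2⟩, fun b hb => ?_⟩, ?_, ?_⟩
  · have := congrArg Subtype.val (z.2 b hb)
    simpa using this
  · apply Subtype.ext
    exact z.2.1 b hb
  · intro z; rfl
  · intro z; rfl

theorem best_inherit {α : 𝔄 →* Module.End (ZMod p) V}
    (best : ∀ B : Subgroup 𝔄, Nat.card B * Nat.card (fixS α B) ≤ Nat.card 𝔄 * Nat.card (fixS α ⊤))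
    (U : Submodule (ZMod p) V) (B : Subgroup 𝔄) :
    Nat.card B * Nat.card (fixS α B ⊓ U : Submodule (ZMod p) V)
      ≤ Nat.card 𝔄 * Nat.card (fixS α ⊤ ⊓ U : Submodule (ZMod p) V) := by
  set X := fixS α B ⊓ U with hX
  set Y := fixS α ⊤ with hY
  have hYB : Y ≤ fixS α B := fixS_anti le_top
  have e1 : X ⊓ Y = Y ⊓ U := by
    rw [hX, inf_comm, ← inf_assoc, inf_eq_left.mpr hYB]
  have e2 : X ⊔ Y ≤ fixS α B := sup_le inf_le_left hYB
  have e3 := card_submodule_sup_mul_inf X Y
  have e4 := card_submodule_le e2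
  have e5 := best B
  have hpos : 0 < Nat.card Y := Nat.card_pos
  rw [e1] at e3
  apply Nat.le_of_mul_le_mul_right _ hpos
  calc Nat.card B * Nat.card X * Nat.card Y = Nat.card B * (Nat.card X * Nat.card Y) := by ring
    _ = Nat.card B * (Nat.card (X ⊔ Y : Submodule (ZMod p) V) * Nat.card (Y ⊓ U : Submodule (ZMod p) V)) := by
        rw [e3]
    _ ≤ Nat.card B * (Nat.card (fixS α B) * Nat.card (Y ⊓ U : Submodule (ZMod p) V)) :=
        Nat.mul_le_mul_left _ (Nat.mul_le_mul_right _ e4)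
    _ = (Nat.card B * Nat.card (fixS α B)) * Nat.card (Y ⊓ U : Submodule (ZMod p) V) := by ring
    _ ≤ (Nat.card 𝔄 * Nat.card Y) * Nat.card (Y ⊓ U : Submodule (ZMod p) V) :=
        Nat.mul_le_mul_right _ e5
    _ = Nat.card 𝔄 * Nat.card (Y ⊓ U : Submodule (ZMod p) V) * Nat.card Y := by ring

/-- descent to a proper invariant submodule -/
theorem descend (ih : IH.{u, v, w} p Q (Nat.card V)) {α : 𝔄 →* Module.End (ZMod p) V}
    {κ : Q →* Module.End (ZMod p) V} (hc : Cfg α κ) (κ₁ : Q →* Module.End (ZMod p) V)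
    (hk3 : ∀ b, Nrm α κ₁ b ∨ Mov α κ₁ b) (a₁ : 𝔄) (hm : Mov α κ₁ a₁)
    (U : Submodule (ZMod p) V) (hU : U ≠ ⊤) (hUA : ∀ b, ∀ u ∈ U, α b u ∈ U)
    (hUK : ∀ x, ∀ u ∈ U, κ₁ x u ∈ U) : ∀ x, ∀ u ∈ U, κ₁ x u = u := by
  have hcard : Nat.card U < Nat.card V := by
    by_contra hcon
    push Not at hcon
    apply hU
    have h1 : Nat.card (⊤ : Submodule (ZMod p) V) ≤ Nat.card U := by
      rw [Nat.card_congr (Submodule.topEquiv (R := ZMod p) (M := V)).toEquiv]
      exact hcon
    exact submodule_eq_of_le_of_card_le le_top h1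
  have hres : ∀ (f g : Module.End (ZMod p) V) (f' g' : Module.End (ZMod p) U),
      (∀ u : U, (f' u : V) = f u) → (∀ u : U, (g' u : V) = g u) → f = g → f' = g' := by
    intro f g f' g' hf hg hfg
    apply LinearMap.ext
    intro u
    apply Subtype.ext
    rw [hf, hg, hfg]
  have hcfg : Cfg (resHom α U hUA) (resHom κ₁ U hUK) := by
    refine ⟨hc.comm, hc.exp, ?_, ?_⟩
    · intro B
      rw [card_fixS_resHom, card_fixS_resHom]
      exact best_inherit hc.best U B
    · intro b
      rcases hk3 b with h | h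
      · left
        intro x
        obtain ⟨y, hy⟩ := h x
        refine ⟨y, ?_⟩
        exact hres _ _ _ _ (fun u => rfl) (fun u => rfl) hy
      · right
        intro x y
        exact hres _ _ _ _ (fun u => rfl) (fun u => rfl) (h x y).eq
  have hmov : Mov (resHom α U hUA) (resHom κ₁ U hUK) a₁ := by
    intro x y
    exact hres _ _ _ _ (fun u => rfl) (fun u => rfl) (hm x y).eq
  have := ih 𝔄 U (resHom α U hUA) (resHom κ₁ U hUK) hcard hcfg ⟨a₁, hmov⟩
  intro x u hu
  have h2 := congrArg (fun f => ((f ⟨u, hu⟩ : U) : V)) (this x)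
  simpa using h2

variable [Finite Q]

/-- a subgroup of `𝔄` centralizing `κ Q` acts trivially -/
theorem triv_of_centralizes (hQ : QSG Q) (ih : IH.{u, v, w} p Q (Nat.card V))
    {α : 𝔄 →* Module.End (ZMod p) V} {κ : Q →* Module.End (ZMod p) V} (hc : Cfg α κ)
    {a : 𝔄} (ha : Mov α κ a) (hnt : ¬ ∀ x, κ x = 1) (P : Subgroup 𝔄)
    (hP : ∀ d ∈ P, ∀ x, Commute (α d) (κ x)) : ∀ d ∈ P, α d = 1 := by
  by_cases hU : fixS α P = ⊤
  · intro d hd
    apply LinearMap.ext
    intro v
    have : v ∈ fixS α P := hU ▸ Submodule.mem_top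
    exact this d hd
  · exfalso
    apply hnt
    have h1 := descend ih hc κ hc.k3 a ha (fixS α P) hU ?_ ?_
    · apply axb hQ (hc.isPGroup.to_subgroup P) (α.comp P.subtype) κ
      · intro b x
        exact hP b b.2 x
      · intro x v hv
        exact h1 x v (fun b hb => hv ⟨b, hb⟩)
    · intro b u hu d hd
      have := congrArg (fun f => f u) (hc.acomm d b).eq
      simp only [Module.End.mul_apply] at this
      rw [this, hu d hd]
    · intro x u hu d hd
      have := congrArg (fun f => f u) (hP d hd x).eq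
      simp only [Module.End.mul_apply] at this
      rw [this, hu d hd]

end descend

end Cfsg.Agent.Lib.Helper51.PGV
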