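import Mathlib
import Cfsg.Agent.Lib.Helper51.PGVCfg

/-! Elementary calculus of `Nrm` and `Mov`. -/

set_option autoImplicit false

namespace Cfsg.Agent.Lib.Helper51.PGV

universe u v w

open scoped commutatorElement

section

variable {p : ℕ} [hp : Fact p.Prime]
variable {𝔄 : Type u} [Group 𝔄] {Q : Type w} [Group Q]
variable {V : Type v} [AddCommGroup V] [Module (ZMod p) V]
variable {α : 𝔄 →* Module.End (ZMod p) V} {κ : Q →* Module.End (ZMod p) V}

theorem commute_conj {R : Type*} [Monoid R] {δ δi A B : R} (h2 : δi * δ = 1) (h : Commute A B) :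
    Commute (δ * A * δi) (δ * B * δi) := by
  change δ * A * δi * (δ * B * δi) = δ * B * δi * (δ * A * δi)
  calc δ * A * δi * (δ * B * δi) = δ * A * (δi * δ) * B * δi := by simp only [mul_assoc]
    _ = δ * (A * B) * δi := by rw [h2]; simp only [mul_assoc, mul_one]
    _ = δ * (B * A) * δi := by rw [h.eq]
    _ = δ * B * (δi * δ) * A * δi := by rw [h2]; simp only [mul_assoc, mul_one]
    _ = δ * B * δi * (δ * A * δi) := by simp only [mul_assoc]

theorem cj_mul (b c : 𝔄) (x : Q) : cj α κ (b * c) x = α b * cj α κ c x * α b⁻¹ := by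
  rw [cj_apply, cj_apply, map_mul, mul_inv_rev, map_mul]
  simp only [mul_assoc]

theorem cj_one (x : Q) : cj α κ 1 x = κ x := by
  rw [cj_apply]; simp

theorem nrm_iff {b : 𝔄} : Nrm α κ b ↔ ∀ x, ∃ y, cj α κ b x = κ y := Iff.rfl

theorem mov_iff {b : 𝔄} : Mov α κ b ↔ ∀ x y, Commute (cj α κ b x) (κ y) := Iff.rfl

theorem nrm_one : Nrm α κ 1 := fun x => ⟨x, by simp⟩

theorem Nrm.mul {b c : 𝔄} (hb : Nrm α κ b) (hc : Nrm α κ c) : Nrm α κ (b * c) := by
  intro x
  obtain ⟨y, hy⟩ := hc x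
  obtain ⟨z, hz⟩ := hb y
  refine ⟨z, ?_⟩
  have := cj_mul (α := α) (κ := κ) b c x
  rw [cj_apply, cj_apply, hy, hz] at this
  exact this

theorem Nrm.pow {b : 𝔄} (hb : Nrm α κ b) (n : ℕ) : Nrm α κ (b ^ n) := by
  induction n with
  | zero => rw [pow_zero]; exact nrm_one
  | succ n ih => rw [pow_succ]; exact ih.mul hb

theorem Nrm.inv (hc : Cfg α κ) {b : 𝔄} (hb : Nrm α κ b) : Nrm α κ b⁻¹ := by
  have : b⁻¹ = b ^ (p - 1) := by
    rw [inv_eq_iff_mul_eq_one, ← pow_succ', Nat.sub_add_cancel hp.out.one_le, hc.exp]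
  rw [this]
  exact hb.pow _

theorem Mov.inv {b : 𝔄} (hb : Mov α κ b) : Mov α κ b⁻¹ := by
  intro x y
  have h := (hb y x).symm
  have h2 := commute_conj (δ := α b⁻¹) (δi := α b) (hom_mul_inv α b) h
  have e : α b⁻¹ * (α b * κ y * α b⁻¹) * α b = κ y := by
    calc α b⁻¹ * (α b * κ y * α b⁻¹) * α b = (α b⁻¹ * α b) * κ y * (α b⁻¹ * α b) := by
          simp only [mul_assoc]
      _ = κ y := by rw [hom_inv_mul]; simp
  rw [e] at h2
  rw [inv_inv]
  exact h2

theorem Mov.mul_nrm {a b : 𝔄} (ha : Mov α κ a) (hb : Nrm α κ b) : Mov α κ (a * b) := by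
  intro x y
  obtain ⟨z, hz⟩ := hb x
  have := cj_mul (α := α) (κ := κ) a b x
  rw [cj_apply, cj_apply, hz] at this
  rw [this]
  exact ha z y

theorem triv_of_nrm_mov (hQ : QSG Q) {b : 𝔄} (h1 : Nrm α κ b) (h2 : Mov α κ b) :
    ∀ x, κ x = 1 := by
  apply triv_of_comm hQ
  intro x y
  obtain ⟨z, hz⟩ := h1 y
  have h3 := h2 x z
  rw [← hz] at h3
  have h4 := commute_conj (δ := α b⁻¹) (δi := α b) (hom_mul_inv α b) h3
  have e : ∀ w : Q, α b⁻¹ * (α b * κ w * α b⁻¹) * α b = κ w := by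
    intro w
    calc α b⁻¹ * (α b * κ w * α b⁻¹) * α b = (α b⁻¹ * α b) * κ w * (α b⁻¹ * α b) := by
          simp only [mul_assoc]
      _ = κ w := by rw [hom_inv_mul]; simp
  rw [e, e] at h4
  exact h4

theorem nrm_of_eq_one {b : 𝔄} (h : α b = 1) : Nrm α κ b := by
  intro x
  refine ⟨x, ?_⟩
  have h' : α b⁻¹ = 1 := by
    have := hom_mul_inv α b
    rwa [h, one_mul] at this
  rw [h, h']; simp

theorem Mov.ne_one (hQ : QSG Q) (hnt : ¬ ∀ x, κ x = 1) {b : 𝔄} (h : Mov α κ b) : α b ≠ 1 :=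
  fun h1 => hnt (triv_of_nrm_mov hQ (nrm_of_eq_one h1) h)

theorem Mov.not_nrm (hQ : QSG Q) (hnt : ¬ ∀ x, κ x = 1) {b : 𝔄} (h : Mov α κ b) : ¬ Nrm α κ b :=
  fun h1 => hnt (triv_of_nrm_mov hQ h1 h)

theorem mov_of_not_nrm (hc : Cfg α κ) {b : 𝔄} (h : ¬ Nrm α κ b) : Mov α κ b :=
  (hc.k3 b).resolve_left h

theorem nrm_of_not_mov (hc : Cfg α κ) {b : 𝔄} (h : ¬ Mov α κ b) : Nrm α κ b :=
  (hc.k3 b).resolve_right h

/-- the span of all `(κ x - 1) v` -/
def comm₁ (κ : Q →* Module.End (ZMod p) V) : Submodule (ZMod p) V :=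
  Submodule.span (ZMod p) {w | ∃ x v, w = κ x v - v}

theorem sub_mem_comm₁ (x : Q) (v : V) : κ x v - v ∈ comm₁ κ := Submodule.subset_span ⟨x, v, rfl⟩

/-- an operator that normalizes `κ Q` preserves `[V, κ Q]` -/
theorem comm₁_invariant (f : Module.End (ZMod p) V) (h : ∀ x, ∃ y, f * κ x = κ y * f) :
    ∀ u ∈ comm₁ κ, f u ∈ comm₁ κ := by
  intro u hu
  induction hu using Submodule.span_induction with
  | mem w hw =>
    obtain ⟨x, v, rfl⟩ := hw
    obtain ⟨y, hy⟩ := h x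
    have := congrArg (fun g => g v) hy
    simp only [Module.End.mul_apply] at this
    rw [map_sub, this]
    exact sub_mem_comm₁ y (f v)
  | zero => rw [map_zero]; exact Submodule.zero_mem _
  | add a b _ _ ha hb => rw [map_add]; exact Submodule.add_mem _ ha hb
  | smul c a _ ha => rw [map_smul]; exact Submodule.smul_mem _ c ha

theorem comm₁_self_invariant : ∀ x, ∀ u ∈ comm₁ κ, κ x u ∈ comm₁ κ := by
  intro x
  apply comm₁_invariant
  intro y
  refine ⟨x * y * x⁻¹, ?_⟩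
  rw [← map_mul, ← map_mul]
  congr 1
  group

/-- an operator killing all `(κ x - 1) v` kills `[V, κ Q]` -/
theorem comm₁_le_ker (f : Module.End (ZMod p) V) (h : ∀ x v, f (κ x v - v) = 0) :
    ∀ u ∈ comm₁ κ, f u = 0 := by
  intro u hu
  have : comm₁ κ ≤ LinearMap.ker f := by
    unfold comm₁
    rw [Submodule.span_le]
    rintro _ ⟨x, v, rfl⟩
    exact h x v
  exact this hu

end

end Cfsg.Agent.Lib.Helper51.PGV
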