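import Mathlib
import Cfsg.Agent.Lib.Helper51.PGVNrm

/-! `p = 2`: the diagonal subgroup and the reduction to two conjugates. -/

set_option autoImplicit false

namespace Cfsg.Agent.Lib.Helper51.PGV

universe u v w

open scoped commutatorElement

section

variable {𝔄 : Type u} [Group 𝔄] {Q : Type w} [Group Q]
variable {V : Type v} [AddCommGroup V] [Module (ZMod 2) V]
variable {α : 𝔄 →* Module.End (ZMod 2) V} {κ : Q →* Module.End (ZMod 2) V}

theorem inv2 (hc : Cfg α κ) (b : 𝔄) : b⁻¹ = b := by
  rw [inv_eq_iff_mul_eq_one, ← sq]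
  exact hc.exp b

theorem sq2 (hc : Cfg α κ) (b : 𝔄) : α b * α b = 1 := by
  rw [← map_mul, ← sq, hc.exp, map_one]

theorem sq2_apply (hc : Cfg α κ) (b : 𝔄) (v : V) : α b (α b v) = v := by
  have := congrArg (fun f => f v) (sq2 hc b)
  simpa using this

theorem add_self2 (v : V) : v + v = 0 := by
  have : (2 : ZMod 2) • v = 0 := by
    have h : (2 : ZMod 2) = 0 := by decide
    rw [h, zero_smul]
  rwa [two_smul] at this

theorem neg2 (v : V) : -v = v := by
  rw [neg_eq_iff_add_eq_zero]; exact add_self2 v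

theorem sub2 (v w : V) : v - w = v + w := by
  rw [sub_eq_add_neg, neg2]

/-- the diagonal of `κ Q` and its conjugate under a moving element -/
def kD (α : 𝔄 →* Module.End (ZMod 2) V) (κ : Q →* Module.End (ZMod 2) V) (a : 𝔄)
    (h : Mov α κ a) : Q →* Module.End (ZMod 2) V where
  toFun x := κ x * cj α κ a x
  map_one' := by simp
  map_mul' := by
    intro x y
    have hxy : cj α κ a x * κ y = κ y * cj α κ a x := (h x y).eq
    calc κ (x * y) * cj α κ a (x * y) = κ x * (κ y * cj α κ a x) * cj α κ a y := by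
          rw [map_mul, map_mul]; simp only [mul_assoc]
      _ = κ x * (cj α κ a x * κ y) * cj α κ a y := by rw [hxy]
      _ = κ x * cj α κ a x * (κ y * cj α κ a y) := by simp only [mul_assoc]

theorem kD_apply (a : 𝔄) (h : Mov α κ a) (x : Q) : kD α κ a h x = κ x * cj α κ a x := rfl

theorem conj_kD (a : 𝔄) (h : Mov α κ a) (c : 𝔄) (x : Q) :
    α c * kD α κ a h x * α c⁻¹ = cj α κ c x * cj α κ (c * a) x := by
  rw [kD_apply, cj_mul, cj_apply α κ c]
  calc α c * (κ x * cj α κ a x) * α c⁻¹ = α c * κ x * 1 * cj α κ a x * α c⁻¹ := by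
        simp only [mul_assoc, one_mul]
    _ = α c * κ x * α c⁻¹ * (α c * cj α κ a x * α c⁻¹) := by
        rw [← hom_inv_mul α c]; simp only [mul_assoc]

theorem kD_k3 (hc : Cfg α κ) (a : 𝔄) (h : Mov α κ a) (c : 𝔄) :
    Nrm α (kD α κ a h) c ∨ Mov α (kD α κ a h) c := by
  rcases hc.k3 c with hN | hM
  · left
    intro x
    obtain ⟨y, hy⟩ := hN x
    refine ⟨y, ?_⟩
    rw [conj_kD, hc.comm c a, cj_mul, cj_apply α κ c, hy, kD_apply, cj_apply]
  · rcases hc.k3 (a * c) with hN2 | hM2
    · left
      intro x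
      obtain ⟨y, hy⟩ := hN2 x
      refine ⟨y, ?_⟩
      have e1 : cj α κ (c * a) x = κ y := by rw [hc.comm c a]; exact hy
      have e2 : cj α κ c x = cj α κ a y := by
        have : c = a * (a * c) := by
          rw [← mul_assoc, ← sq, hc.exp, one_mul]
        conv_lhs => rw [this]
        rw [cj_mul, cj_apply α κ (a * c), hy, cj_apply]
      rw [conj_kD, e1, e2, kD_apply]
      exact (h y y).eq
    · right
      intro x y
      rw [conj_kD, kD_apply]
      have c1 : Commute (cj α κ c x) (κ y) := hM x y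
      have c3 : Commute (cj α κ (c * a) x) (κ y) := by rw [hc.comm c a]; exact hM2 x y
      have c4 : Commute (cj α κ (c * a) x) (cj α κ a y) := by
        rw [hc.comm c a, cj_mul, cj_apply α κ a y]
        exact commute_conj (hom_inv_mul α a) c1
      have c2 : Commute (cj α κ c x) (cj α κ a y) := by
        have : c = a * (a * c) := by
          rw [← mul_assoc, ← sq, hc.exp, one_mul]
        conv_lhs => rw [this]
        rw [cj_mul, cj_apply α κ a y]
        exact commute_conj (hom_inv_mul α a) (hM2 x y)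
      exact (c1.mul_right c2).mul_left (c3.mul_right c4)

theorem kD_mov (hc : Cfg α κ) (a : 𝔄) (h : Mov α κ a) {c : 𝔄} (hM : Mov α κ c)
    (hM2 : Mov α κ (a * c)) : Mov α (kD α κ a h) c := by
  intro x y
  rw [conj_kD, kD_apply]
  have c1 : Commute (cj α κ c x) (κ y) := hM x y
  have c3 : Commute (cj α κ (c * a) x) (κ y) := by rw [hc.comm c a]; exact hM2 x y
  have c4 : Commute (cj α κ (c * a) x) (cj α κ a y) := by
    rw [hc.comm c a, cj_mul, cj_apply α κ a y]
    exact commute_conj (hom_inv_mul α a) c1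
  have c2 : Commute (cj α κ c x) (cj α κ a y) := by
    have : c = a * (a * c) := by
      rw [← mul_assoc, ← sq, hc.exp, one_mul]
    conv_lhs => rw [this]
    rw [cj_mul, cj_apply α κ a y]
    exact commute_conj (hom_inv_mul α a) (hM2 x y)
  exact (c1.mul_right c2).mul_left (c3.mul_right c4)

/-- `α a` commutes with the diagonal -/
theorem kD_commute (hc : Cfg α κ) (a : 𝔄) (h : Mov α κ a) (x : Q) :
    Commute (α a) (kD α κ a h x) := by
  have e : α a * kD α κ a h x * α a⁻¹ = kD α κ a h x := by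
    rw [conj_kD, ← sq, hc.exp, cj_one, kD_apply]
    exact (h x x).eq
  change α a * kD α κ a h x = kD α κ a h x * α a
  calc α a * kD α κ a h x = α a * kD α κ a h x * (α a⁻¹ * α a) := by rw [hom_inv_mul, mul_one]
    _ = (α a * kD α κ a h x * α a⁻¹) * α a := by simp only [mul_assoc]
    _ = kD α κ a h x * α a := by rw [e]

/-- conjugation of the diagonal by a normalizing element -/
theorem kD_conj_nrm (hc : Cfg α κ) (a : 𝔄) (h : Mov α κ a) {b : 𝔄} {x y : Q}
    (hy : α b * κ x * α b⁻¹ = κ y) : α b * kD α κ a h x * α b⁻¹ = kD α κ a h y := by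
  rw [conj_kD, hc.comm b a, cj_mul, cj_apply α κ b, hy, kD_apply, cj_apply]

theorem mem_fixS_zpowers {a : 𝔄} {v : V} : v ∈ fixS α (Subgroup.zpowers a) ↔ α a v = v := by
  constructor
  · intro h
    exact h a (Subgroup.mem_zpowers a)
  · intro h b hb
    let N : Subgroup 𝔄 :=
        { carrier := {g | α g v = v}
          mul_mem' := by
            intro x y hx hy
            change α (x * y) v = v
            rw [map_mul, Module.End.mul_apply, hy, hx]
          one_mem' := by change α 1 v = v; simp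
          inv_mem' := by
            intro x hx
            change α x⁻¹ v = v
            conv_lhs => rw [← (hx : α x v = v)]
            rw [hom_inv_apply_apply] }
    have : Subgroup.zpowers a ≤ N := by
      rw [Subgroup.zpowers_le]
      exact h
    exact this hb

/-- if the diagonal acts trivially then so does `κ` -/
theorem triv_of_kD_triv (hQ : QSG Q) (a : 𝔄) (h : Mov α κ a) (ht : ∀ x, kD α κ a h x = 1) :
    ∀ x, κ x = 1 := by
  apply triv_of_comm hQ
  intro x y
  have e : cj α κ a x⁻¹ = κ x := by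
    have h1 := ht x⁻¹
    rw [kD_apply] at h1
    calc cj α κ a x⁻¹ = (κ x * κ x⁻¹) * cj α κ a x⁻¹ := by rw [hom_mul_inv, one_mul]
      _ = κ x * (κ x⁻¹ * cj α κ a x⁻¹) := by rw [mul_assoc]
      _ = κ x := by rw [h1, mul_one]
  rw [← e]
  exact h x⁻¹ y

variable [Finite 𝔄] [Finite Q] [Finite V]

/-- if the diagonal fixes `C_V(a)` pointwise then `κ` is trivial -/
theorem triv_of_kD_fix (hQ : QSG Q) (hc : Cfg α κ) (a : 𝔄) (h : Mov α κ a)
    (hf : ∀ x v, α a v = v → kD α κ a h x v = v) : ∀ x, κ x = 1 := by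
  apply triv_of_kD_triv hQ a h
  apply axb hQ (hc.isPGroup.to_subgroup (Subgroup.zpowers a)) (α.comp (Subgroup.zpowers a).subtype)
  · rintro ⟨b, hb⟩ x
    obtain ⟨n, rfl⟩ := Subgroup.mem_zpowers_iff.mp hb
    change Commute (α (a ^ n)) _
    have h1 : ∀ m : ℕ, Commute (α (a ^ m)) (kD α κ a h x) := by
      intro m
      rw [map_pow]
      exact (kD_commute hc a h x).pow_left m
    rcases Int.even_or_odd n with ⟨k, hk⟩ | ⟨k, hk⟩
    · have : a ^ n = 1 := by
        rw [hk, ← two_mul, zpow_mul, zpow_ofNat, hc.exp, one_zpow]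
      rw [this, map_one]
      exact Commute.one_left _
    · have : a ^ n = a := by
        rw [hk, zpow_add, zpow_mul, zpow_ofNat, hc.exp, one_zpow, one_mul, zpow_one]
      rw [this]
      exact kD_commute hc a h x
  · intro x v hv
    exact hf x v (hv ⟨a, Subgroup.mem_zpowers a⟩)

/-- `|𝔄 : N_𝔄(κ Q)| ≤ 2` -/
theorem nrm_mul_of_mov (hQ : QSG Q) (ih : IH.{u, v, w} 2 Q (Nat.card V)) (hc : Cfg α κ)
    (hnt : ¬ ∀ x, κ x = 1) {a b : 𝔄} (ha : Mov α κ a) (hb : Mov α κ b) : Nrm α κ (a * b) := by
  by_contra hN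
  have hab : Mov α κ (a * b) := mov_of_not_nrm hc hN
  apply hnt
  apply triv_of_kD_fix hQ hc a ha
  have hU : fixS α (Subgroup.zpowers a) ≠ ⊤ := by
    intro h
    apply ha.ne_one hQ hnt
    apply LinearMap.ext
    intro v
    have : v ∈ fixS α (Subgroup.zpowers a) := h ▸ Submodule.mem_top
    exact mem_fixS_zpowers.mp this
  have := descend ih hc (kD α κ a ha) (kD_k3 hc a ha) b (kD_mov hc a ha hb hab)
    (fixS α (Subgroup.zpowers a)) hU ?_ ?_
  · intro x v hv
    exact this x v (mem_fixS_zpowers.mpr hv)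
  · intro c u hu
    rw [mem_fixS_zpowers] at hu ⊢
    have := congrArg (fun f => f u) (hc.acomm a c).eq
    simp only [Module.End.mul_apply] at this
    rw [this, hu]
  · intro x u hu
    rw [mem_fixS_zpowers] at hu ⊢
    have := congrArg (fun f => f u) (kD_commute hc a ha x).eq
    simp only [Module.End.mul_apply] at this
    rw [this, hu]

end

end Cfsg.Agent.Lib.Helper51.PGV
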