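import Mathlib
import Cfsg.Agent.Lib.Helper51.PGVTwoA
import Cfsg.Agent.S0144

/-! `p = 2`: the bimodule structure. -/

set_option autoImplicit false

namespace Cfsg.Agent.Lib.Helper51.PGV

universe u v w

open scoped commutatorElement

theorem span_invariant {R M : Type*} [Semiring R] [AddCommMonoid M] [Module R M] (S : Set M)
    (f : M →ₗ[R] M) (h : ∀ s ∈ S, f s ∈ Submodule.span R S) :
    ∀ u ∈ Submodule.span R S, f u ∈ Submodule.span R S := by
  have : Submodule.span R S ≤ (Submodule.span R S).comap f := by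
    rw [Submodule.span_le]
    exact h
  exact fun u hu => this hu

section

variable {𝔄 : Type u} [Group 𝔄] {Q : Type w} [Group Q]
variable {V : Type v} [AddCommGroup V] [Module (ZMod 2) V]
variable {α : 𝔄 →* Module.End (ZMod 2) V} {κ : Q →* Module.End (ZMod 2) V}
variable [Finite 𝔄] [Finite Q] [Finite V]

/-- `[V, a]` -/
def Wa (α : 𝔄 →* Module.End (ZMod 2) V) (a : 𝔄) : Submodule (ZMod 2) V := LinearMap.range (α a - 1)

theorem mem_Wa {a : 𝔄} {w : V} : w ∈ Wa α a ↔ ∃ v, α a v - v = w := by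
  unfold Wa
  rw [LinearMap.mem_range]
  simp

theorem sub_mem_Wa (a : 𝔄) (v : V) : α a v - v ∈ Wa α a := mem_Wa.mpr ⟨v, rfl⟩

theorem Wa_fixed (hc : Cfg α κ) {a : 𝔄} {w : V} (hw : w ∈ Wa α a) : α a w = w := by
  obtain ⟨v, rfl⟩ := mem_Wa.mp hw
  rw [map_sub, sq2_apply hc, sub2, sub2, add_comm]

theorem Wa_invariant (hc : Cfg α κ) (a b : 𝔄) : ∀ w ∈ Wa α a, α b w ∈ Wa α a := by
  intro w hw
  obtain ⟨v, rfl⟩ := mem_Wa.mp hw
  have := congrArg (fun f => f v) (hc.acomm b a).eq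
  simp only [Module.End.mul_apply] at this
  rw [map_sub, this]
  exact sub_mem_Wa a _

theorem cj_apply2 (hc : Cfg α κ) (a : 𝔄) (x : Q) (v : V) :
    cj α κ a x v = α a (κ x (α a v)) := by
  rw [cj_apply, inv2 hc]; rfl

/-- the hypothesis that the diagonal centralizes `[V, a]` -/
def F1 (α : 𝔄 →* Module.End (ZMod 2) V) (κ : Q →* Module.End (ZMod 2) V) (a : 𝔄) : Prop :=
  ∀ x, ∀ w ∈ Wa α a, κ x (cj α κ a x w) = w

theorem F1.cj_eq {a : 𝔄} (h : F1 α κ a) (x : Q) {w : V} (hw : w ∈ Wa α a) :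
    cj α κ a x w = κ x⁻¹ w := by
  conv_rhs => rw [← h x w hw]
  rw [hom_inv_apply_apply]

theorem F1.a_apply (hc : Cfg α κ) {a : 𝔄} (h : F1 α κ a) (x : Q) {w : V} (hw : w ∈ Wa α a) :
    α a (κ x w) = κ x⁻¹ w := by
  rw [← h.cj_eq x hw, cj_apply2 hc, Wa_fixed hc hw]

/-- `τ_x = x + x⁻¹` -/
def tau (κ : Q →* Module.End (ZMod 2) V) (x : Q) : Module.End (ZMod 2) V := κ x + κ x⁻¹

theorem tau_apply (x : Q) (v : V) : tau κ x v = κ x v + κ x⁻¹ v := rfl

theorem F1.tau_mem (hc : Cfg α κ) {a : 𝔄} (h : F1 α κ a) (x : Q) {w : V} (hw : w ∈ Wa α a) :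
    tau κ x w ∈ Wa α a := by
  rw [tau_apply, ← h.a_apply hc x hw, add_comm, ← sub2]
  exact sub_mem_Wa a _

theorem F1.tau_comm_on (hc : Cfg α κ) {a : 𝔄} (ha : Mov α κ a) (h : F1 α κ a) (x y : Q) {w : V}
    (hw : w ∈ Wa α a) : tau κ x (κ y w) = κ y (tau κ x w) := by
  have e1 : κ y w = cj α κ a y⁻¹ w := by rw [h.cj_eq y⁻¹ hw, inv_inv]
  have e2 : κ y (tau κ x w) = cj α κ a y⁻¹ (tau κ x w) := by
    rw [h.cj_eq y⁻¹ (h.tau_mem hc x hw), inv_inv]
  have c1 := congrArg (fun f => f w) (ha y⁻¹ x).eq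
  have c2 := congrArg (fun f => f w) (ha y⁻¹ x⁻¹).eq
  simp only [Module.End.mul_apply] at c1 c2
  rw [e1, e2, tau_apply, tau_apply, map_add]
  rw [cj_apply]
  simp only [Module.End.mul_apply]
  rw [c1, c2]

/-- proper invariant submodules are centralized -/
theorem fixed_of_invariant (ih : IH.{u, v, w} 2 Q (Nat.card V)) (hc : Cfg α κ) {a : 𝔄}
    (ha : Mov α κ a) (U : Submodule (ZMod 2) V) (hU : U ≠ ⊤) (hUA : ∀ b, ∀ u ∈ U, α b u ∈ U)
    (hUK : ∀ x, ∀ u ∈ U, κ x u ∈ U) : ∀ x, ∀ u ∈ U, κ x u = u :=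
  descend ih hc κ hc.k3 a ha U hU hUA hUK

/-- `κ Q` does not centralize `[V, a]` -/
theorem not_fix_Wa (hQ : QSG Q) (hc : Cfg α κ) (hnt : ¬ ∀ x, κ x = 1) {a : 𝔄} (ha : Mov α κ a) :
    ¬ ∀ x, ∀ w ∈ Wa α a, κ x w = w := by
  intro hfix
  apply hnt
  have hn : ∀ x v, cj α κ a x v - κ x v ∈ Wa α a := by
    intro x v
    have hw : α a v - v ∈ Wa α a := sub_mem_Wa a v
    have e : cj α κ a x v - κ x v = (α a (κ x v) - κ x v) + (α a v - v) := by
      have h1 : α a v = v + (α a v - v) := by abel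
      rw [cj_apply2 hc]
      conv_lhs => rw [h1, map_add, hfix x _ hw, map_add, Wa_fixed hc hw]
      abel
    rw [e]
    exact Submodule.add_mem _ (sub_mem_Wa a _) hw
  have hcomm : ∀ x y v, κ y (κ x v) - κ x (κ y v) ∈ Wa α a := by
    intro x y v
    have c := congrArg (fun f => f v) (ha x y).eq
    simp only [Module.End.mul_apply] at c
    have c' : cj α κ a x (κ y v) = κ y (cj α κ a x v) := c
    have h1 := hn x v
    have h2 := hn x (κ y v)
    have h3 := hfix y _ h1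
    rw [map_sub] at h3
    have e : κ y (κ x v) - κ x (κ y v)
        = (cj α κ a x (κ y v) - κ x (κ y v)) - (cj α κ a x v - κ x v) := by
      rw [← h3, c']; abel
    rw [e]
    exact Submodule.sub_mem _ h2 h1
  have hY : ∀ x, ∀ u ∈ Wa α a, κ x u ∈ Wa α a := fun x u hu => by rw [hfix x u hu]; exact hu
  apply triv_of_two_step hQ κ (Wa α a) _ hfix
  have := sec_all_of_commutators hQ κ ⊤ (Wa α a) (fun _ _ _ => Submodule.mem_top) hY ?_
  · intro g v
    exact this g v Submodule.mem_top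
  · intro g h v _
    rw [commutator_apply_sub]
    exact hcomm h g _

/-- the submodule generated by `[V, a]` under `κ Q` -/
def Ta (α : 𝔄 →* Module.End (ZMod 2) V) (κ : Q →* Module.End (ZMod 2) V) (a : 𝔄) :
    Submodule (ZMod 2) V := Submodule.span (ZMod 2) {z | ∃ x, ∃ w ∈ Wa α a, z = κ x w}

theorem nrm_swap {b : 𝔄} {x y : Q} (h : α b * κ x * α b⁻¹ = κ y) : α b * κ x = κ y * α b := by
  calc α b * κ x = α b * κ x * (α b⁻¹ * α b) := by rw [hom_inv_mul, mul_one]
    _ = (α b * κ x * α b⁻¹) * α b := by simp only [mul_assoc]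
    _ = κ y * α b := by rw [h]

theorem nrm_swap_apply {b : 𝔄} {x y : Q} (h : α b * κ x * α b⁻¹ = κ y) (v : V) :
    α b (κ x v) = κ y (α b v) := by
  have := congrArg (fun f => f v) (nrm_swap h)
  simpa using this

theorem Ta_eq_top (hQ : QSG Q) (ih : IH.{u, v, w} 2 Q (Nat.card V)) (hc : Cfg α κ)
    (hnt : ¬ ∀ x, κ x = 1) {a : 𝔄} (ha : Mov α κ a) (h : F1 α κ a) : Ta α κ a = ⊤ := by
  by_contra hne
  have hK : ∀ x, ∀ u ∈ Ta α κ a, κ x u ∈ Ta α κ a := by
    intro x
    apply span_invariant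
    rintro _ ⟨y, w, hw, rfl⟩
    apply Submodule.subset_span
    exact ⟨x * y, w, hw, by rw [map_mul]; rfl⟩
  have hNr : ∀ b, Nrm α κ b → ∀ u ∈ Ta α κ a, α b u ∈ Ta α κ a := by
    intro b hb
    apply span_invariant
    rintro _ ⟨y, w, hw, rfl⟩
    obtain ⟨z, hz⟩ := hb y
    apply Submodule.subset_span
    exact ⟨z, α b w, Wa_invariant hc a b w hw, nrm_swap_apply hz w⟩
  have ha' : ∀ u ∈ Ta α κ a, α a u ∈ Ta α κ a := by
    apply span_invariant
    rintro _ ⟨y, w, hw, rfl⟩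
    apply Submodule.subset_span
    exact ⟨y⁻¹, w, hw, h.a_apply hc y hw⟩
  have hA : ∀ b, ∀ u ∈ Ta α κ a, α b u ∈ Ta α κ a := by
    intro b u hu
    rcases hc.k3 b with hb | hb
    · exact hNr b hb u hu
    · have h1 := nrm_mul_of_mov hQ ih hc hnt ha hb
      have e : b = a * (a * b) := by rw [← mul_assoc, ← sq, hc.exp, one_mul]
      rw [e, map_mul]
      exact ha' _ (hNr _ h1 u hu)
  have := fixed_of_invariant ih hc ha (Ta α κ a) hne hA hK
  apply not_fix_Wa hQ hc hnt ha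
  intro x w hw
  apply this x w
  apply Submodule.subset_span
  exact ⟨1, w, hw, by simp⟩

theorem tau_commute_kappa (hQ : QSG Q) (ih : IH.{u, v, w} 2 Q (Nat.card V)) (hc : Cfg α κ)
    (hnt : ¬ ∀ x, κ x = 1) {a : 𝔄} (ha : Mov α κ a) (h : F1 α κ a) (x y : Q) :
    Commute (tau κ x) (κ y) := by
  apply LinearMap.ext_on (Ta_eq_top hQ ih hc hnt ha h)
  rintro _ ⟨z, w, hw, rfl⟩
  change tau κ x (κ y (κ z w)) = κ y (tau κ x (κ z w))
  have e : κ y (κ z w) = κ (y * z) w := by rw [map_mul]; rfl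
  rw [e, h.tau_comm_on hc ha x (y * z) hw, h.tau_comm_on hc ha x z hw, map_mul]
  rfl

theorem tau_commute_a (hQ : QSG Q) (ih : IH.{u, v, w} 2 Q (Nat.card V)) (hc : Cfg α κ)
    (hnt : ¬ ∀ x, κ x = 1) {a : 𝔄} (ha : Mov α κ a) (h : F1 α κ a) (x : Q) :
    Commute (tau κ x) (α a) := by
  apply LinearMap.ext_on (Ta_eq_top hQ ih hc hnt ha h)
  rintro _ ⟨z, w, hw, rfl⟩
  change tau κ x (α a (κ z w)) = α a (tau κ x (κ z w))
  rw [h.a_apply hc z hw, h.tau_comm_on hc ha x z⁻¹ hw, h.tau_comm_on hc ha x z hw,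
    h.a_apply hc z (h.tau_mem hc x hw)]

/-- operators commuting with everything are zero or injective -/
theorem injective_of_commutes (hQ : QSG Q) (ih : IH.{u, v, w} 2 Q (Nat.card V)) (hc : Cfg α κ)
    (hnt : ¬ ∀ x, κ x = 1) {a : 𝔄} (ha : Mov α κ a) (ζ : Module.End (ZMod 2) V)
    (h1 : ∀ x, Commute ζ (κ x)) (h2 : ∀ b, Commute ζ (α b)) (h0 : ζ ≠ 0) :
    Function.Injective ζ := by
  set Y : Submodule (ZMod 2) V := Submodule.span (ZMod 2) {z | ∃ b x v, z = cj α κ b x v - v} with hY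
  have hYA : ∀ c, ∀ u ∈ Y, α c u ∈ Y := by
    intro c
    apply span_invariant
    rintro _ ⟨b, x, v, rfl⟩
    apply Submodule.subset_span
    refine ⟨c * b, x, α c v, ?_⟩
    rw [cj_mul, map_sub]
    simp only [Module.End.mul_apply]
    rw [hom_inv_apply_apply]
  have hYK : ∀ y, ∀ u ∈ Y, κ y u ∈ Y := by
    intro y
    apply span_invariant
    rintro _ ⟨b, x, v, rfl⟩
    apply Submodule.subset_span
    rcases hc.k3 b with hb | hb
    · obtain ⟨z, hz⟩ := hb x
      refine ⟨1, y * z * y⁻¹, κ y v, ?_⟩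
      rw [cj_one, cj_apply, hz, map_sub, map_mul, map_mul]
      simp only [Module.End.mul_apply]
      rw [hom_inv_apply_apply]
    · refine ⟨b, x, κ y v, ?_⟩
      have := congrArg (fun f => f v) (hb x y).eq
      simp only [Module.End.mul_apply] at this
      rw [map_sub, cj_apply]
      simp only [Module.End.mul_apply]
      rw [this]
  have hYtop : Y = ⊤ := by
    by_contra hne
    apply hnt
    have := fixed_of_invariant ih hc ha Y hne hYA hYK
    apply triv_of_two_step hQ κ Y _ this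
    intro g v
    apply Submodule.subset_span
    exact ⟨1, g, v, by rw [cj_one]⟩
  have hsurj : LinearMap.range ζ = ⊤ := by
    by_contra hne
    apply h0
    have hf := fixed_of_invariant ih hc ha (LinearMap.range ζ) hne ?_ ?_
    · apply LinearMap.ext_on hYtop
      rintro _ ⟨b, x, v, rfl⟩
      have e1 : ∀ (c : 𝔄) (u : V), ζ (α c u) = α c (ζ u) := by
        intro c u
        have := congrArg (fun f => f u) (h2 c).eq
        simpa using this
      have e2 : ∀ (y : Q) (u : V), ζ (κ y u) = κ y (ζ u) := by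
        intro y u
        have := congrArg (fun f => f u) (h1 y).eq
        simpa using this
      rw [map_sub, cj_apply]
      simp only [Module.End.mul_apply]
      rw [e1, e2, hf x _ ⟨_, rfl⟩, ← e1, hom_apply_inv_apply, sub_self]
      rfl
    · rintro b _ ⟨v, rfl⟩
      refine ⟨α b v, ?_⟩
      have := congrArg (fun f => f v) (h2 b).eq
      simpa using this
    · rintro x _ ⟨v, rfl⟩
      refine ⟨κ x v, ?_⟩
      have := congrArg (fun f => f v) (h1 x).eq
      simpa using this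
  exact Finite.injective_iff_surjective.mpr (LinearMap.range_eq_top.mp hsurj)

end

end Cfsg.Agent.Lib.Helper51.PGV
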