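import Mathlib
import Cfsg.Agent.Lib.Helper51.PGVTwoB

/-! `p = 2`: the case of a transvection (`|[V,a]| = 2`), via Burnside's theorem. -/

set_option autoImplicit false

namespace Cfsg.Agent.Lib.Helper51.PGV

universe u v w

open scoped commutatorElement

theorem exists_two_three (n : ℕ) (hn : n ≠ 0) (h : ∀ r, r.Prime → r ∣ n → r = 2 ∨ r = 3) :
    ∃ a b, n = 2 ^ a * 3 ^ b := by
  induction n using Nat.strong_induction_on with
  | _ n ih =>
    by_cases h1 : n = 1
    · exact ⟨0, 0, by simp [h1]⟩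
    · have hpr := Nat.minFac_prime h1
      obtain ⟨m, hm⟩ := Nat.minFac_dvd n
      have hm0 : m ≠ 0 := by
        rintro rfl
        simp at hm
        exact hn hm
      have hlt : m < n := by
        calc m = 1 * m := (one_mul m).symm
          _ < n.minFac * m := Nat.mul_lt_mul_of_pos_right hpr.one_lt (Nat.pos_of_ne_zero hm0)
          _ = n := hm.symm
      obtain ⟨a, b, hab⟩ := ih m hlt hm0 (fun r hr hrm => h r hr (hm ▸ Dvd.dvd.mul_left hrm _))
      rcases h _ hpr (Nat.minFac_dvd n) with h2 | h3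
      · refine ⟨a + 1, b, ?_⟩
        rw [hm, h2, hab]; ring
      · refine ⟨a, b + 1, ?_⟩
        rw [hm, h3, hab]; ring

section

variable {Q : Type w} [Group Q] [Finite Q]
variable {V : Type v} [AddCommGroup V] [Module (ZMod 2) V]

theorem burnside_step (hQ : QSG Q) (κ : Q →* Module.End (ZMod 2) V)
    (h : ∀ x, κ x ^ 2 = 1 ∨ κ x ^ 3 = 1) : ∀ x, κ x = 1 := by
  haveI : Group.IsPerfect Q := Group.isPerfect_def.mpr hQ.perfect
  have hel : ∀ q : Q ⧸ κ.ker, q ^ 2 = 1 ∨ q ^ 3 = 1 := by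
    intro q
    obtain ⟨x, rfl⟩ := QuotientGroup.mk_surjective q
    rcases h x with h2 | h3
    · left
      rw [← QuotientGroup.mk_pow, QuotientGroup.eq_one_iff, MonoidHom.mem_ker, map_pow, h2]
    · right
      rw [← QuotientGroup.mk_pow, QuotientGroup.eq_one_iff, MonoidHom.mem_ker, map_pow, h3]
  obtain ⟨a, b, hab⟩ := exists_two_three (Nat.card (Q ⧸ κ.ker)) Nat.card_pos.ne' (by
    intro r hr hdvd
    haveI : Fact r.Prime := ⟨hr⟩
    obtain ⟨q, hq⟩ := exists_prime_orderOf_dvd_card' r hdvd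
    rcases hel q with h2 | h3
    · left
      have := orderOf_dvd_of_pow_eq_one h2
      rw [hq] at this
      exact (Nat.prime_dvd_prime_iff_eq hr Nat.prime_two).mp this
    · right
      have := orderOf_dvd_of_pow_eq_one h3
      rw [hq] at this
      exact (Nat.prime_dvd_prime_iff_eq hr Nat.prime_three).mp this)
  have hsol : Group.IsSolvable (Q ⧸ κ.ker) :=
    Cfsg.Agent.S0144.result 2 3 a b Nat.prime_two Nat.prime_three hab
  have hsub : Subsingleton (Q ⧸ κ.ker) := by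
    by_contra hns
    rw [not_subsingleton_iff_nontrivial] at hns
    exact Group.IsPerfect.not_isSolvable (Q ⧸ κ.ker) hsol
  intro x
  have : (QuotientGroup.mk x : Q ⧸ κ.ker) = 1 := Subsingleton.elim _ _
  rw [QuotientGroup.eq_one_iff] at this
  exact this

theorem one_add_one_end : (1 : Module.End (ZMod 2) V) + 1 = 0 := by
  apply LinearMap.ext
  intro v
  exact add_self2 v

theorem sq_of_tau_zero (κ : Q →* Module.End (ZMod 2) V) (x : Q) (h : tau κ x = 0) :
    κ x ^ 2 = 1 := by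
  have h1 : κ x * tau κ x = 0 := by rw [h, mul_zero]
  unfold tau at h1
  rw [mul_add, hom_mul_inv, ← sq] at h1
  have : κ x ^ 2 = κ x ^ 2 + ((1 : Module.End (ZMod 2) V) + 1) := by rw [one_add_one_end, add_zero]
  rw [this, ← add_assoc, h1, zero_add]

theorem cube_of_tau_one (κ : Q →* Module.End (ZMod 2) V) (x : Q) (h : tau κ x = 1) :
    κ x ^ 3 = 1 := by
  have h1 : κ x * tau κ x = κ x := by rw [h, mul_one]
  unfold tau at h1
  rw [mul_add, hom_mul_inv, ← sq] at h1
  -- x² + 1 = x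
  have h2 : κ x ^ 3 + κ x = κ x ^ 2 := by
    calc κ x ^ 3 + κ x = κ x * (κ x ^ 2 + 1) := by rw [mul_add, mul_one, pow_succ' _ 2]
      _ = κ x ^ 2 := by rw [h1, sq]
  have h3 : κ x ^ 3 + (κ x ^ 2 + 1) = κ x ^ 2 := by rw [h1]; exact h2
  have e : ∀ A : Module.End (ZMod 2) V, A + A = 0 := by
    intro A
    calc A + A = A * (1 + 1) := by rw [mul_add, mul_one]
      _ = 0 := by rw [one_add_one_end, mul_zero]
  calc κ x ^ 3 = κ x ^ 3 + (κ x ^ 2 + 1) + (κ x ^ 2 + 1) := by rw [add_assoc, e, add_zero]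
    _ = κ x ^ 2 + (κ x ^ 2 + 1) := by rw [h3]
    _ = 1 := by rw [← add_assoc, e, zero_add]

end

section

variable {𝔄 : Type u} [Group 𝔄] {Q : Type w} [Group Q]
variable {V : Type v} [AddCommGroup V] [Module (ZMod 2) V]
variable {α : 𝔄 →* Module.End (ZMod 2) V} {κ : Q →* Module.End (ZMod 2) V}
variable [Finite 𝔄] [Finite Q] [Finite V]

/-- operators commuting with `κ Q` and `α 𝔄` -/
def InE (α : 𝔄 →* Module.End (ZMod 2) V) (κ : Q →* Module.End (ZMod 2) V)
    (ζ : Module.End (ZMod 2) V) : Prop := (∀ x, Commute ζ (κ x)) ∧ ∀ b, Commute ζ (α b)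

omit [Finite 𝔄] [Finite Q] [Finite V] in
theorem InE.zero : InE α κ 0 := ⟨fun _ => Commute.zero_left _, fun _ => Commute.zero_left _⟩

omit [Finite 𝔄] [Finite Q] [Finite V] in
theorem InE.one : InE α κ 1 := ⟨fun _ => Commute.one_left _, fun _ => Commute.one_left _⟩

omit [Finite 𝔄] [Finite Q] [Finite V] in
theorem InE.add {ζ ξ : Module.End (ZMod 2) V} (h1 : InE α κ ζ) (h2 : InE α κ ξ) :
    InE α κ (ζ + ξ) :=
  ⟨fun x => (h1.1 x).add_left (h2.1 x), fun b => (h1.2 b).add_left (h2.2 b)⟩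

omit [Finite 𝔄] [Finite Q] [Finite V] in
theorem InE.sub {ζ ξ : Module.End (ZMod 2) V} (h1 : InE α κ ζ) (h2 : InE α κ ξ) :
    InE α κ (ζ - ξ) :=
  ⟨fun x => (h1.1 x).sub_left (h2.1 x), fun b => (h1.2 b).sub_left (h2.2 b)⟩

omit [Finite 𝔄] [Finite Q] [Finite V] in
theorem InE.smul {ζ : Module.End (ZMod 2) V} (c : ZMod 2) (h1 : InE α κ ζ) : InE α κ (c • ζ) :=
  ⟨fun x => (h1.1 x).smul_left c, fun b => (h1.2 b).smul_left c⟩

theorem InE.injective (hQ : QSG Q) (ih : IH.{u, v, w} 2 Q (Nat.card V)) (hc : Cfg α κ)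
    (hnt : ¬ ∀ x, κ x = 1) {a : 𝔄} (ha : Mov α κ a) {ζ : Module.End (ZMod 2) V} (h : InE α κ ζ)
    (h0 : ζ ≠ 0) : Function.Injective ζ :=
  injective_of_commutes hQ ih hc hnt ha ζ h.1 h.2 h0

/-- the final contradiction: all `τ_x` are "scalars" and take only the values `0`, `1` -/
theorem finish (hQ : QSG Q) (ih : IH.{u, v, w} 2 Q (Nat.card V)) (hc : Cfg α κ)
    (hnt : ¬ ∀ x, κ x = 1) {a : 𝔄} (ha : Mov α κ a) (hτ : ∀ x, InE α κ (tau κ x))
    {w : V} (hw0 : w ≠ 0) (hw : ∀ x, tau κ x w = 0 ∨ tau κ x w = w) : False := by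
  apply hnt
  apply burnside_step hQ
  intro x
  rcases hw x with h | h
  · left
    apply sq_of_tau_zero
    by_contra h0
    have := (hτ x).injective hQ ih hc hnt ha h0
    exact hw0 (this (by rw [h, map_zero]))
  · right
    apply cube_of_tau_one
    by_contra h0
    have h1 : tau κ x - 1 ≠ 0 := fun h' => h0 (sub_eq_zero.mp h')
    have := ((hτ x).sub InE.one).injective hQ ih hc hnt ha h1
    apply hw0
    apply this
    rw [map_zero, LinearMap.sub_apply, h]
    simp

end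

end Cfsg.Agent.Lib.Helper51.PGV
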