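import Mathlib
import Cfsg.Agent.Lib.Helper51.PGVTwoC

/-! `p = 2`: axes of the moving involutions. -/

set_option autoImplicit false

namespace Cfsg.Agent.Lib.Helper51.PGV

universe u v w

open scoped commutatorElement

section

variable {𝔄 : Type u} [Group 𝔄] {Q : Type w} [Group Q]
variable {V : Type v} [AddCommGroup V] [Module (ZMod 2) V]
variable {α : 𝔄 →* Module.End (ZMod 2) V} {κ : Q →* Module.End (ZMod 2) V}
variable [Finite 𝔄] [Finite Q] [Finite V]

omit [Finite 𝔄] [Finite Q] [Finite V] in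
theorem InE.mul {ζ ξ : Module.End (ZMod 2) V} (h1 : InE α κ ζ) (h2 : InE α κ ξ) :
    InE α κ (ζ * ξ) :=
  ⟨fun x => (h1.1 x).mul_left (h2.1 x), fun b => (h1.2 b).mul_left (h2.2 b)⟩

omit [Finite 𝔄] [Finite Q] in
theorem InE.exists_inv {ζ : Module.End (ZMod 2) V} (h : InE α κ ζ) (hinj : Function.Injective ζ) :
    ∃ η, InE α κ η ∧ η * ζ = 1 := by
  have hsurj : Function.Surjective ζ := Finite.injective_iff_surjective.mp hinj
  let e := LinearEquiv.ofBijective ζ ⟨hinj, hsurj⟩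
  have he : ∀ v, e.symm (ζ v) = v := fun v => e.symm_apply_apply v
  have key : ∀ f : Module.End (ZMod 2) V, Commute ζ f →
      Commute (e.symm.toLinearMap : Module.End (ZMod 2) V) f := by
    intro f hf
    apply LinearMap.ext
    intro v
    obtain ⟨u, rfl⟩ := hsurj v
    change e.symm (f (ζ u)) = f (e.symm (ζ u))
    have := congrArg (fun g => g u) hf.eq
    simp only [Module.End.mul_apply] at this
    rw [← this, he, he]
  exact ⟨e.symm.toLinearMap, ⟨fun x => key _ (h.1 x), fun b => key _ (h.2 b)⟩, LinearMap.ext he⟩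

omit [Finite 𝔄] [Finite Q] [Finite V] in
theorem mem_ker_sub_one {a : 𝔄} {v : V} : v ∈ LinearMap.ker (α a - 1) ↔ α a v = v := by
  rw [LinearMap.mem_ker, LinearMap.sub_apply, Module.End.one_apply, sub_eq_zero]

/-- the elements of `𝔄` centralizing `κ Q` -/
def cenS (hc : Cfg α κ) : Subgroup 𝔄 where
  carrier := {d | ∀ x, Commute (α d) (κ x)}
  mul_mem' := by
    intro x y hx hy z
    rw [map_mul]
    exact (hx z).mul_left (hy z)
  one_mem' := by
    intro z
    rw [map_one]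
    exact Commute.one_left _
  inv_mem' := by
    intro x hx z
    rw [inv2 hc]
    exact hx z

/-- the elements of `𝔄` normalizing `κ Q` -/
def nrmS (hc : Cfg α κ) : Subgroup 𝔄 where
  carrier := {d | Nrm α κ d}
  mul_mem' := Nrm.mul
  one_mem' := nrm_one
  inv_mem' := Nrm.inv hc

omit [Finite 𝔄] [Finite Q] [Finite V] in
theorem kD_fix_of_nrm (hQ : QSG Q) (hc : Cfg α κ) {a : 𝔄} (ha : Mov α κ a) {d : 𝔄}
    (hd : Nrm α κ d) (hnc : ¬ ∀ x, Commute (α d) (κ x)) (U : Submodule (ZMod 2) V)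
    (hU : ∀ x, ∀ u ∈ U, kD α κ a ha x u ∈ U) (hdU : ∀ u ∈ U, α d u = u) :
    ∀ x, ∀ u ∈ U, kD α κ a ha x u = u := by
  obtain ⟨x, y, hxy, hncen⟩ := exists_noncentral_comm hQ κ (α d) (α d⁻¹) (hom_mul_inv α d)
    (hom_inv_mul α d) hd hnc
  have h1 : α d * kD α κ a ha x * α d⁻¹ = kD α κ a ha y := kD_conj_nrm hc a ha hxy
  have h2 : ∀ u ∈ U, kD α κ a ha y u = kD α κ a ha x u := by
    intro u hu
    rw [← h1]
    simp only [Module.End.mul_apply]
    have : α d⁻¹ u = u := by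
      conv_lhs => rw [← hdU u hu]
      rw [hom_inv_apply_apply]
    rw [this, hdU _ (hU x u hu)]
  have h3 : ∀ u ∈ U, kD α κ a ha (x * y⁻¹) u - u ∈ (⊥ : Submodule (ZMod 2) V) := by
    intro u hu
    rw [Submodule.mem_bot, sub_eq_zero, map_mul, Module.End.mul_apply]
    rw [← h2 _ (hU y⁻¹ u hu), hom_apply_inv_apply]
  have h4 := sec_all_of_noncentral hQ (kD α κ a ha) U ⊥ hU (by
    intro x u hu
    rw [Submodule.mem_bot] at hu ⊢
    rw [hu, map_zero]) h3 hncen
  intro g u hu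
  have := h4 g u hu
  rwa [Submodule.mem_bot, sub_eq_zero] at this

omit [Finite Q] in
theorem kD_Wa_invariant (hc : Cfg α κ) (a : 𝔄) (ha : Mov α κ a) :
    ∀ x, ∀ u ∈ Wa α a, kD α κ a ha x u ∈ Wa α a := by
  intro x u hu
  obtain ⟨v, rfl⟩ := mem_Wa.mp hu
  have := congrArg (fun f => f v) (kD_commute hc a ha x).eq
  simp only [Module.End.mul_apply] at this
  rw [map_sub, ← this]
  exact sub_mem_Wa a _

omit [Finite Q] in
theorem F1_of_kD_fix {a : 𝔄} (ha : Mov α κ a) (h : ∀ x, ∀ u ∈ Wa α a, kD α κ a ha x u = u) :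
    F1 α κ a := h

theorem axes (hQ : QSG Q) (ih : IH.{u, v, w} 2 Q (Nat.card V)) (hc : Cfg α κ)
    (hnt : ¬ ∀ x, κ x = 1) {a a' : 𝔄} (ha : Mov α κ a) (ha' : Mov α κ a')
    (h : ∀ v, α a v = v → α a' v = v) : α a = α a' := by
  have hb : Nrm α κ (a * a') := nrm_mul_of_mov hQ ih hc hnt ha ha'
  by_contra hne
  have hb1 : α (a * a') ≠ 1 := by
    intro h1
    apply hne
    rw [map_mul] at h1
    calc α a = α a * (α a' * α a') := by rw [sq2 hc, mul_one]
      _ = (α a * α a') * α a' := by rw [mul_assoc]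
      _ = α a' := by rw [h1, one_mul]
  have hnc : ¬ ∀ x, Commute (α (a * a')) (κ x) := by
    intro hcm
    apply hb1
    apply triv_of_centralizes hQ ih hc ha hnt (Subgroup.zpowers (a * a')) _ _
      (Subgroup.mem_zpowers _)
    have : Subgroup.zpowers (a * a') ≤ cenS hc := by
      rw [Subgroup.zpowers_le]
      exact hcm
    exact fun d hd => this hd
  apply hnt
  apply triv_of_kD_fix hQ hc a ha
  have := kD_fix_of_nrm hQ hc ha hb hnc (LinearMap.ker (α a - 1)) ?_ ?_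
  · intro x v hv
    exact this x v (mem_ker_sub_one.mpr hv)
  · intro x u hu
    rw [mem_ker_sub_one] at hu ⊢
    have := congrArg (fun f => f u) (kD_commute hc a ha x).eq
    simp only [Module.End.mul_apply] at this
    rw [this, hu]
  · intro u hu
    rw [mem_ker_sub_one] at hu
    rw [map_mul, Module.End.mul_apply, h u hu, hu]

omit [Finite Q] in
theorem Wa_ne_bot (hQ : QSG Q) (hnt : ¬ ∀ x, κ x = 1) {a : 𝔄} (ha : Mov α κ a) : Wa α a ≠ ⊥ := by
  intro h
  apply ha.ne_one hQ hnt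
  apply LinearMap.ext
  intro v
  have := sub_mem_Wa (α := α) a v
  rw [h, Submodule.mem_bot, sub_eq_zero] at this
  exact this

theorem Wa_cyclic (hQ : QSG Q) (ih : IH.{u, v, w} 2 Q (Nat.card V)) (hc : Cfg α κ)
    (hnt : ¬ ∀ x, κ x = 1) {a : 𝔄} (ha : Mov α κ a) (hF : F1 α κ a)
    (hτ : ∀ x, InE α κ (tau κ x)) :
    ∃ w ∈ Wa α a, w ≠ 0 ∧ ∀ v, ∃ ζ, InE α κ ζ ∧ α a v - v = ζ w := by
  obtain ⟨w, hw, hw0, hwf⟩ := exists_fixed_in hc.isPGroup α (Wa α a)
    (fun b => Wa_invariant hc a b) (Wa_ne_bot hQ hnt ha)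
  refine ⟨w, hw, hw0, ?_⟩
  set T : Submodule (ZMod 2) V := Submodule.span (ZMod 2) {z | ∃ x, z = κ x w} with hT
  have hK : ∀ x, ∀ u ∈ T, κ x u ∈ T := by
    intro x
    apply span_invariant
    rintro _ ⟨y, rfl⟩
    apply Submodule.subset_span
    exact ⟨x * y, by rw [map_mul]; rfl⟩
  have hNr : ∀ b, Nrm α κ b → ∀ u ∈ T, α b u ∈ T := by
    intro b hb
    apply span_invariant
    rintro _ ⟨y, rfl⟩
    obtain ⟨z, hz⟩ := hb y
    apply Submodule.subset_span
    exact ⟨z, by rw [nrm_swap_apply hz w, hwf b]⟩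
  have ha' : ∀ u ∈ T, α a u ∈ T := by
    apply span_invariant
    rintro _ ⟨y, rfl⟩
    apply Submodule.subset_span
    exact ⟨y⁻¹, hF.a_apply hc y hw⟩
  have hA : ∀ b, ∀ u ∈ T, α b u ∈ T := by
    intro b u hu
    rcases hc.k3 b with hb | hb
    · exact hNr b hb u hu
    · have h1 := nrm_mul_of_mov hQ ih hc hnt ha hb
      have e : b = a * (a * b) := by rw [← mul_assoc, ← sq, hc.exp, one_mul]
      rw [e, map_mul]
      exact ha' _ (hNr _ h1 u hu)
  have hTtop : T = ⊤ := by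
    by_contra hne
    have hfix := fixed_of_invariant ih hc ha T hne hA hK
    have hwT : w ∈ T := Submodule.subset_span ⟨1, by simp⟩
    apply finish hQ ih hc hnt ha hτ hw0
    intro x
    left
    rw [tau_apply, hfix x w hwT, hfix x⁻¹ w hwT, add_self2]
  intro v
  have hv : v ∈ T := hTtop ▸ Submodule.mem_top
  induction hv using Submodule.span_induction with
  | mem z hz =>
    obtain ⟨x, rfl⟩ := hz
    exact ⟨tau κ x, hτ x, by rw [hF.a_apply hc x hw, tau_apply, sub2, add_comm]⟩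
  | zero => exact ⟨0, InE.zero, by simp⟩
  | add x y _ _ hx hy =>
    obtain ⟨ζ, h1, e1⟩ := hx
    obtain ⟨ξ, h2, e2⟩ := hy
    exact ⟨ζ + ξ, h1.add h2, by rw [map_add, LinearMap.add_apply, ← e1, ← e2]; abel⟩
  | smul c x _ hx =>
    obtain ⟨ζ, h1, e1⟩ := hx
    exact ⟨c • ζ, h1.smul c, by rw [map_smul, LinearMap.smul_apply, ← e1, smul_sub]⟩

theorem sum_top (hQ : QSG Q) (ih : IH.{u, v, w} 2 Q (Nat.card V)) (hc : Cfg α κ)
    (hnt : ¬ ∀ x, κ x = 1) {a : 𝔄} (ha : Mov α κ a) (hF : F1 α κ a)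
    (hτ : ∀ x, InE α κ (tau κ x)) {h : V} (hh : α a h ≠ h) (v : V) :
    ∃ η, InE α κ η ∧ α a (v - η h) = v - η h := by
  obtain ⟨w, hw, hw0, hcyc⟩ := Wa_cyclic hQ ih hc hnt ha hF hτ
  obtain ⟨ζ₁, hζ₁, e₁⟩ := hcyc h
  obtain ⟨ζ, hζ, e⟩ := hcyc v
  have hζ₁0 : ζ₁ ≠ 0 := by
    rintro rfl
    apply hh
    simpa [sub_eq_zero] using e₁
  obtain ⟨η₁, hη₁, hinv⟩ := hζ₁.exists_inv (hζ₁.injective hQ ih hc hnt ha hζ₁0)
  refine ⟨ζ * η₁, hζ.mul hη₁, ?_⟩
  have c := congrArg (fun f => f h) ((hζ.mul hη₁).2 a).eq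
  simp only [Module.End.mul_apply] at c
  have e3 : α a ((ζ * η₁) h) - (ζ * η₁) h = α a v - v := by
    rw [e]
    have h1 : η₁ (ζ₁ w) = w := by
      have := congrArg (fun f => f w) hinv
      simpa using this
    calc α a ((ζ * η₁) h) - (ζ * η₁) h = (ζ * η₁) (α a h - h) := by
          rw [map_sub]
          simp only [Module.End.mul_apply]
          rw [c]
      _ = ζ w := by rw [e₁, Module.End.mul_apply, h1]
  rw [map_sub, sub_eq_sub_iff_sub_eq_sub]
  exact e3.symm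

theorem pair_top (hQ : QSG Q) (ih : IH.{u, v, w} 2 Q (Nat.card V)) (hc : Cfg α κ)
    (hnt : ¬ ∀ x, κ x = 1) (hF : ∀ b, Mov α κ b → F1 α κ b)
    (hτ : ∀ x, InE α κ (tau κ x)) {b b' : 𝔄} (hb : Mov α κ b) (hb' : Mov α κ b') :
    α b = α b' ∨ LinearMap.ker (α b - 1) ⊔ LinearMap.ker (α b' - 1) = ⊤ := by
  by_cases h : ∀ v, α b' v = v → α b v = v
  · left
    exact (axes hQ ih hc hnt hb' hb h).symm
  · right
    push Not at h
    obtain ⟨h0, h1, h2⟩ := h
    rw [eq_top_iff]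
    intro v _
    obtain ⟨η, hη, e⟩ := sum_top hQ ih hc hnt hb (hF b hb) hτ h2 v
    have : v = (v - η h0) + η h0 := by abel
    rw [this]
    apply Submodule.add_mem_sup
    · exact mem_ker_sub_one.mpr e
    · rw [mem_ker_sub_one]
      have c := congrArg (fun f => f h0) (hη.2 b').eq
      simp only [Module.End.mul_apply] at c
      rw [← c, h1]

end

end Cfsg.Agent.Lib.Helper51.PGV
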