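import Mathlib
import Cfsg.Agent.Lib.Helper51.PGVTwoD
import Cfsg.Agent.Lib.Helper73.PGVCount
import Cfsg.Agent.Lib.Helper11.PGVRepl

/-! `p = 2`: the two cases and the conclusion. -/

set_option autoImplicit false

namespace Cfsg.Agent.Lib.Helper51.PGV

universe u v w

open scoped commutatorElement
open Cfsg.Agent.Lib.Helper11.PGV (replD mem_replD repl)
open Cfsg.Agent.Lib.Helper73.PGVCount (count)

theorem two_of_three_eq {X : Type*} [Finite X] (h : Nat.card X ≤ 2) (a b c : X) :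
    a = b ∨ a = c ∨ b = c := by
  classical
  by_contra hcon
  push Not at hcon
  obtain ⟨h1, h2, h3⟩ := hcon
  have := Fintype.ofFinite X
  have e : ({a, b, c} : Finset X).card = 3 := Finset.card_eq_three.mpr ⟨a, b, c, h1, h2, h3, rfl⟩
  have := Finset.card_le_univ ({a, b, c} : Finset X)
  rw [e, ← Nat.card_eq_fintype_card] at this
  omega

section

variable {V : Type v} [AddCommGroup V] [Module (ZMod 2) V] [Finite V]

theorem fix_of_card_le_two (W : Submodule (ZMod 2) V) (hcard : Nat.card W ≤ 2)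
    (f : Module.End (ZMod 2) V) (hinj : Function.Injective f) (hW : ∀ u ∈ W, f u ∈ W) :
    ∀ u ∈ W, f u = u := by
  intro u hu
  rcases two_of_three_eq hcard (0 : W) ⟨u, hu⟩ ⟨f u, hW u hu⟩ with h | h | h
  · have : u = 0 := (congrArg Subtype.val h).symm
    rw [this, map_zero]
  · have h1 : f u = 0 := (congrArg Subtype.val h).symm
    have : u = 0 := hinj (by rw [h1, map_zero])
    rw [this, map_zero]
  · exact (congrArg Subtype.val h).symm

theorem card_eq_ker_mul_range (f : Module.End (ZMod 2) V) :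
    Nat.card V = Nat.card (LinearMap.ker f) * Nat.card (LinearMap.range f) := by
  have h := LinearMap.finrank_range_add_finrank_ker f
  rw [Module.natCard_eq_pow_finrank (K := ZMod 2) (V := V),
    Module.natCard_eq_pow_finrank (K := ZMod 2) (V := LinearMap.ker f),
    Module.natCard_eq_pow_finrank (K := ZMod 2) (V := LinearMap.range f), ← pow_add, ← h, add_comm]

end

section

variable {𝔄 : Type u} [Group 𝔄] {Q : Type w} [Group Q]
variable {V : Type v} [AddCommGroup V] [Module (ZMod 2) V]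
variable {α : 𝔄 →* Module.End (ZMod 2) V} {κ : Q →* Module.End (ZMod 2) V}
variable [Finite 𝔄] [Finite Q] [Finite V]

theorem tau_inE_of_F1 (hQ : QSG Q) (ih : IH.{u, v, w} 2 Q (Nat.card V)) (hc : Cfg α κ)
    (hnt : ¬ ∀ x, κ x = 1) {a : 𝔄} (ha : Mov α κ a) (hF : ∀ b, Mov α κ b → F1 α κ b) (x : Q) :
    InE α κ (tau κ x) := by
  refine ⟨fun y => tau_commute_kappa hQ ih hc hnt ha (hF a ha) x y, fun b => ?_⟩
  rcases hc.k3 b with hb | hb
  · have h1 : Mov α κ (a * b) := ha.mul_nrm hb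
    have e : b = a * (a * b) := by rw [← mul_assoc, ← sq, hc.exp, one_mul]
    rw [e, map_mul]
    exact (tau_commute_a hQ ih hc hnt ha (hF a ha) x).mul_right
      (tau_commute_a hQ ih hc hnt h1 (hF _ h1) x)
  · exact tau_commute_a hQ ih hc hnt hb (hF b hb) x

theorem finish_of_card (hQ : QSG Q) (ih : IH.{u, v, w} 2 Q (Nat.card V)) (hc : Cfg α κ)
    (hnt : ¬ ∀ x, κ x = 1) {b : 𝔄} (hb : Mov α κ b) (hF : F1 α κ b)
    (hτ : ∀ x, InE α κ (tau κ x)) (hcard : Nat.card (Wa α b) ≤ 2) : False := by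
  obtain ⟨w, hw, hw0⟩ := (Submodule.ne_bot_iff _).mp (Wa_ne_bot hQ hnt hb)
  apply finish hQ ih hc hnt hb hτ hw0
  intro x
  have h1 := hF.tau_mem hc x hw
  rcases two_of_three_eq hcard (0 : Wa α b) ⟨w, hw⟩ ⟨tau κ x w, h1⟩ with h | h | h
  · exact absurd (congrArg Subtype.val h).symm hw0
  · left
    exact (congrArg Subtype.val h).symm
  · right
    exact (congrArg Subtype.val h).symm

omit [Finite Q] [Finite V] in
theorem card_le_two_mul_mov (hc : Cfg α κ) {a : 𝔄} (ha : Mov α κ a) :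
    Nat.card 𝔄 ≤ 2 * Nat.card {b : 𝔄 | Mov α κ b} := by
  classical
  let f : 𝔄 → {b : 𝔄 | Mov α κ b} × Bool := fun b =>
    if h : Mov α κ b then (⟨b, h⟩, true) else (⟨a * b, ha.mul_nrm (nrm_of_not_mov hc h)⟩, false)
  have hf : Function.Injective f := by
    intro b c hbc
    by_cases h1 : Mov α κ b <;> by_cases h2 : Mov α κ c
    · simp only [f, dif_pos h1, dif_pos h2, Prod.mk.injEq, Subtype.mk.injEq] at hbc
      exact hbc.1
    · simp only [f, dif_pos h1, dif_neg h2, Prod.mk.injEq] at hbc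
      exact absurd hbc.2 (by simp)
    · simp only [f, dif_neg h1, dif_pos h2, Prod.mk.injEq] at hbc
      exact absurd hbc.2 (by simp)
    · simp only [f, dif_neg h1, dif_neg h2, Prod.mk.injEq, Subtype.mk.injEq] at hbc
      exact mul_left_cancel hbc.1
  have := Nat.card_le_card_of_injective f hf
  rw [Nat.card_prod, Nat.card_eq_fintype_card (α := Bool), Fintype.card_bool, mul_comm] at this
  exact this

theorem case_alpha (hQ : QSG Q) (ih : IH.{u, v, w} 2 Q (Nat.card V)) (hc : Cfg α κ)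
    (hnt : ¬ ∀ x, κ x = 1) {a : 𝔄} (ha : Mov α κ a) {d : 𝔄} (hdD : d ∈ replD α)
    (hdN : Nrm α κ d) (hnc : ¬ ∀ x, Commute (α d) (κ x)) : False := by
  have hF : ∀ b, Mov α κ b → F1 α κ b := by
    intro b hb
    apply F1_of_kD_fix hb
    apply kD_fix_of_nrm hQ hc hb hdN hnc (Wa α b) (kD_Wa_invariant hc b hb)
    intro u hu
    obtain ⟨v, rfl⟩ := mem_Wa.mp hu
    exact hdD b v
  have hτ := tau_inE_of_F1 hQ ih hc hnt ha hF
  obtain ⟨b, hb, hcard⟩ := count α {b | Mov α κ b} (card_le_two_mul_mov hc ha)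
    (fun b hb b' hb' => pair_top hQ ih hc hnt hF hτ hb hb') (by
      have h1 := hc.best α.ker
      have h2 : fixS α α.ker = ⊤ := by
        rw [eq_top_iff]
        intro v _ d hd
        rw [MonoidHom.mem_ker.mp hd]
        rfl
      rw [h2, Nat.card_congr (Submodule.topEquiv (R := ZMod 2) (M := V)).toEquiv] at h1
      exact h1)
  exact finish_of_card hQ ih hc hnt hb (hF b hb) hτ hcard

theorem case_beta (hQ : QSG Q) (ih : IH.{u, v, w} 2 Q (Nat.card V)) (hc : Cfg α κ)
    (hnt : ¬ ∀ x, κ x = 1) {a : 𝔄} (ha : Mov α κ a)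
    (hβ : ∀ d ∈ replD α, Nrm α κ d → ∀ x, Commute (α d) (κ x)) : False := by
  classical
  set D := replD α with hD
  have hDN : ∀ d ∈ D ⊓ nrmS hc, α d = 1 :=
    triv_of_centralizes hQ ih hc ha hnt (D ⊓ nrmS hc) (fun d hd => hβ d hd.1 hd.2)
  obtain ⟨hm, hnontriv⟩ := repl α hc.comm hc.isPGroup hc.best
  have hex : ∃ a₁ ∈ D, α a₁ ≠ 1 := by
    by_contra hcon
    push Not at hcon
    exact ha.ne_one hQ hnt (hnontriv hcon a)
  obtain ⟨a₁, ha₁D, ha₁⟩ := hex
  have ha₁M : Mov α κ a₁ := mov_of_not_nrm hc (fun hN => ha₁ (hDN a₁ ⟨ha₁D, hN⟩))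
  have hDact : ∀ d ∈ D, α d = 1 ∨ α d = α a₁ := by
    intro d hd
    rcases hc.k3 d with hN | hM
    · left
      exact hDN d ⟨hd, hN⟩
    · right
      have h1 := hDN (a₁ * d) ⟨D.mul_mem ha₁D hd, nrm_mul_of_mov hQ ih hc hnt ha₁M hM⟩
      rw [map_mul] at h1
      calc α d = (α a₁ * α a₁) * α d := by rw [sq2 hc, one_mul]
        _ = α a₁ * (α a₁ * α d) := by rw [mul_assoc]
        _ = α a₁ := by rw [h1, mul_one]
  have hfixD : fixS α D = LinearMap.ker (α a₁ - 1) := by
    ext v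
    rw [mem_ker_sub_one]
    constructor
    · intro h
      exact h a₁ ha₁D
    · intro h d hd
      rcases hDact d hd with h1 | h1
      · rw [h1]; rfl
      · rw [h1]; exact h
  have hfixDN : fixS α (D ⊓ nrmS hc) = ⊤ := by
    rw [eq_top_iff]
    intro v _ d hd
    rw [hDN d hd]
    rfl
  have hcardD : Nat.card D ≤ 2 * Nat.card (D ⊓ nrmS hc : Subgroup 𝔄) := by
    let f : D → (D ⊓ nrmS hc : Subgroup 𝔄) × Bool := fun d =>
      if h : Nrm α κ d.1 then (⟨d.1, d.2, h⟩, true)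
      else (⟨a₁ * d.1, D.mul_mem ha₁D d.2,
        nrm_mul_of_mov hQ ih hc hnt ha₁M (mov_of_not_nrm hc h)⟩, false)
    have hf : Function.Injective f := by
      intro b c hbc
      apply Subtype.ext
      by_cases h1 : Nrm α κ b.1 <;> by_cases h2 : Nrm α κ c.1
      · simp only [f, dif_pos h1, dif_pos h2, Prod.mk.injEq] at hbc
        exact congrArg (fun z : (D ⊓ nrmS hc : Subgroup 𝔄) => z.1) hbc.1
      · simp only [f, dif_pos h1, dif_neg h2, Prod.mk.injEq] at hbc
        exact absurd hbc.2 (by simp)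
      · simp only [f, dif_neg h1, dif_pos h2, Prod.mk.injEq] at hbc
        exact absurd hbc.2 (by simp)
      · simp only [f, dif_neg h1, dif_neg h2, Prod.mk.injEq] at hbc
        exact mul_left_cancel (congrArg (fun z : (D ⊓ nrmS hc : Subgroup 𝔄) => z.1) hbc.1)
    have := Nat.card_le_card_of_injective f hf
    rw [Nat.card_prod, Nat.card_eq_fintype_card (α := Bool), Fintype.card_bool, mul_comm] at this
    exact this
  have hb := hc.best (D ⊓ nrmS hc)
  rw [hfixDN, ← hm, hfixD, Nat.card_congr (Submodule.topEquiv (R := ZMod 2) (M := V)).toEquiv,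
    card_eq_ker_mul_range (V := V) (α a₁ - 1)] at hb
  have hcard : Nat.card (Wa α a₁) ≤ 2 := by
    have hpos1 : 0 < Nat.card (D ⊓ nrmS hc : Subgroup 𝔄) := Nat.card_pos
    have hpos2 : 0 < Nat.card (LinearMap.ker (α a₁ - 1)) := Nat.card_pos
    change Nat.card (LinearMap.range (α a₁ - 1)) ≤ 2
    have h3 : Nat.card (D ⊓ nrmS hc : Subgroup 𝔄) * Nat.card (LinearMap.ker (α a₁ - 1))
        * Nat.card (LinearMap.range (α a₁ - 1))
        ≤ Nat.card (D ⊓ nrmS hc : Subgroup 𝔄) * Nat.card (LinearMap.ker (α a₁ - 1)) * 2 := by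
      calc _ = Nat.card (D ⊓ nrmS hc : Subgroup 𝔄) * (Nat.card (LinearMap.ker (α a₁ - 1))
            * Nat.card (LinearMap.range (α a₁ - 1))) := by ring
        _ ≤ Nat.card D * Nat.card (LinearMap.ker (α a₁ - 1)) := hb
        _ ≤ (2 * Nat.card (D ⊓ nrmS hc : Subgroup 𝔄)) * Nat.card (LinearMap.ker (α a₁ - 1)) :=
            Nat.mul_le_mul_right _ hcardD
        _ = _ := by ring
    exact Nat.le_of_mul_le_mul_left h3 (Nat.mul_pos hpos1 hpos2)
  have hF : F1 α κ a₁ := by
    apply F1_of_kD_fix ha₁M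
    intro x
    exact fix_of_card_le_two (Wa α a₁) hcard _ (hom_injective _ x) (kD_Wa_invariant hc a₁ ha₁M x)
  have hfixN : ∀ b, ∀ u ∈ Wa α a₁, α b u = u := by
    intro b
    exact fix_of_card_le_two (Wa α a₁) hcard _ (hom_injective _ b) (Wa_invariant hc a₁ b)
  have hτ : ∀ x, InE α κ (tau κ x) := by
    intro x
    refine ⟨fun y => tau_commute_kappa hQ ih hc hnt ha₁M hF x y, ?_⟩
    have hN : ∀ b, Nrm α κ b → Commute (tau κ x) (α b) := by
      intro b hb
      apply LinearMap.ext_on (Ta_eq_top hQ ih hc hnt ha₁M hF)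
      rintro _ ⟨z, w, hw, rfl⟩
      change tau κ x (α b (κ z w)) = α b (tau κ x (κ z w))
      obtain ⟨z', hz'⟩ := hb z
      rw [nrm_swap_apply hz' w, hfixN b w hw, hF.tau_comm_on hc ha₁M x z' hw,
        hF.tau_comm_on hc ha₁M x z hw, nrm_swap_apply hz', hfixN b _ (hF.tau_mem hc x hw)]
    intro b
    rcases hc.k3 b with hb | hb
    · exact hN b hb
    · have h1 := nrm_mul_of_mov hQ ih hc hnt ha₁M hb
      have e : b = a₁ * (a₁ * b) := by rw [← mul_assoc, ← sq, hc.exp, one_mul]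
      rw [e, map_mul]
      exact (tau_commute_a hQ ih hc hnt ha₁M hF x).mul_right (hN _ h1)
  exact finish_of_card hQ ih hc hnt ha₁M hF hτ hcard

/-- the case `p = 2` -/
theorem two_case (hQ : QSG Q) (ih : IH.{u, v, w} 2 Q (Nat.card V)) (hc : Cfg α κ) {a : 𝔄}
    (ha : Mov α κ a) : ∀ x, κ x = 1 := by
  by_contra hnt
  by_cases h : ∀ d ∈ replD α, Nrm α κ d → ∀ x, Commute (α d) (κ x)
  · exact case_beta hQ ih hc hnt ha h
  · push Not at h
    obtain ⟨d, hdD, hdN, x, hx⟩ := h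
    exact case_alpha hQ ih hc hnt ha hdD hdN (fun hall => hx (hall x))

end

end Cfsg.Agent.Lib.Helper51.PGV
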