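import Mathlib
import Cfsg.Agent.Lib.Helper51.PGVTwoE
import Cfsg.Agent.Lib.Helper73.PGVOdd

/-! The abstract form of the `P(G,V)`-theorem. -/

set_option autoImplicit false

namespace Cfsg.Agent.Lib.Helper51.PGV

universe u v w

open Cfsg.Agent.Lib.Helper11.PGV (repl)

theorem main_ih (p : ℕ) [Fact p.Prime] (Q : Type w) [Group Q] [Finite Q] (hQ : QSG Q) :
    ∀ n, IH.{u, v, w} p Q n := by
  intro n
  induction n using Nat.strong_induction_on with
  | _ n ihn =>
    intro 𝔄 _ _ V _ _ _ α κ hlt hc ⟨a, ha⟩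
    have ih : IH.{u, v, w} p Q (Nat.card V) := ihn _ hlt
    by_cases hp2 : p = 2
    · subst hp2
      exact two_case hQ ih hc ha
    · exact Cfsg.Agent.Lib.Helper73.PGVOdd.odd_case hQ hp2 ih hc ha
        (repl α hc.comm hc.isPGroup hc.best).2

/-- If an elementary abelian best offender `𝔄` on `V` permutes the "conjugates" of the image of the
quasisimple group `Q` (each element normalizes it or moves it to a commuting subgroup), and some
element moves it, then `Q` acts trivially. -/
theorem main {p : ℕ} [Fact p.Prime] {Q : Type w} [Group Q] [Finite Q] (hQ : QSG Q)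
    {𝔄 : Type u} [Group 𝔄] [Finite 𝔄] {V : Type v} [AddCommGroup V] [Module (ZMod p) V] [Finite V]
    {α : 𝔄 →* Module.End (ZMod p) V} {κ : Q →* Module.End (ZMod p) V} (hc : Cfg α κ)
    (h : ∃ a, Mov α κ a) : ∀ x, κ x = 1 :=
  main_ih p Q hQ (Nat.card V + 1) 𝔄 V α κ (Nat.lt_succ_self _) hc h

end Cfsg.Agent.Lib.Helper51.PGV
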